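import Mathlib

/-!
# Groups with elementary abelian Sylow 3-subgroups of order greater than 9 (after `H334/Star`, helper334)

`Bad K` and the elementary ways to exclude it.
-/

set_option autoImplicit false
set_option linter.unusedSectionVars false
set_option linter.unusedVariables false

open Subgroup

namespace Cfsg.Agent.H271.LB3

/-- the Sylow 3-subgroups are elementary abelian of order `> 9` -/
def Bad (K : Type*) [Group K] : Prop :=
  (∀ S : Sylow 3 K, ∀ x ∈ (S : Subgroup K), x ^ 3 = 1 ∧ ∀ y ∈ (S : Subgroup K), x * y = y * x) ∧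
    ∀ S : Sylow 3 K, 9 < Nat.card (S : Subgroup K)

namespace Bad

variable {K : Type*} [Group K]

theorem of_pgroup (h : Bad K) {T : Subgroup K} (hT : IsPGroup 3 T) :
    ∀ x ∈ T, x ^ 3 = 1 ∧ ∀ y ∈ T, x * y = y * x := by
  obtain ⟨S, hS⟩ := hT.exists_le_sylow
  exact fun x hx => ⟨(h.1 S x (hS hx)).1, fun y hy => (h.1 S x (hS hx)).2 y (hS hy)⟩

theorem of_equiv {L : Type*} [Group L] (e : K ≃* L) (h : Bad K) : Bad L := by
  have h3 : Fact (Nat.Prime 3) := ⟨Nat.prime_three⟩
  have key : ∀ S : Sylow 3 L, ∃ T : Sylow 3 K, (T : Subgroup K) = (S : Subgroup L).comap e.toMonoidHom := by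
    intro S
    exact ⟨S.comapOfInjective e.toMonoidHom e.injective (by
      rw [MonoidHom.range_eq_top.2 e.surjective]; exact le_top), rfl⟩
  constructor
  · intro S x hx
    obtain ⟨T, hT⟩ := key S
    have m : ∀ y ∈ (S : Subgroup L), e.symm y ∈ (T : Subgroup K) := by
      intro y hy
      rw [hT]
      show e (e.symm y) ∈ (S : Subgroup L)
      rw [e.apply_symm_apply]; exact hy
    have h1 := h.1 T _ (m x hx)
    refine ⟨?_, fun y hy => ?_⟩
    · apply e.symm.injective
      rw [map_pow, map_one]; exact h1.1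
    · apply e.symm.injective
      rw [map_mul, map_mul]
      exact h1.2 _ (m y hy)
  · intro S
    obtain ⟨T, hT⟩ := key S
    have h1 := h.2 T
    have h2 : Nat.card (T : Subgroup K) = Nat.card (S : Subgroup L) := by
      rw [hT]
      exact Nat.card_congr
        { toFun := fun x => ⟨e x, x.2⟩
          invFun := fun x => ⟨e.symm x, by
            show e (e.symm x) ∈ (S : Subgroup L)
            rw [e.apply_symm_apply]; exact x.2⟩
          left_inv := fun x => Subtype.ext (e.symm_apply_apply _)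
          right_inv := fun x => Subtype.ext (e.apply_symm_apply _) }
    rwa [← h2]

/-- elements of 3-power order have order 1 or 3 -/
theorem pow_three (h : Bad K) {x : K} {n : ℕ} (hx : x ^ 3 ^ n = 1) : x ^ 3 = 1 := by
  have hp : IsPGroup 3 (zpowers x) := by
    rintro ⟨y, hy⟩
    obtain ⟨k, rfl⟩ := mem_zpowers_iff.1 hy
    refine ⟨n, Subtype.ext ?_⟩
    show (x ^ k) ^ 3 ^ n = 1
    rw [← zpow_natCast, ← zpow_mul, mul_comm, zpow_mul, zpow_natCast, hx, one_zpow]
  exact (h.of_pgroup hp x (mem_zpowers x)).1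

theorem not_nine (h : Bad K) {x : K} (hx : orderOf x = 9) : False := by
  have h1 : x ^ 3 ^ 2 = 1 := by
    have := pow_orderOf_eq_one x
    rwa [hx] at this
  have h2 := orderOf_dvd_of_pow_eq_one (h.pow_three h1)
  rw [hx] at h2
  norm_num at h2

theorem dvd (h : Bad K) [Finite K] : 27 ∣ Nat.card K := by
  have h3 : Fact (Nat.Prime 3) := ⟨Nat.prime_three⟩
  have S : Sylow 3 K := default
  have h1 := h.2 S
  obtain ⟨n, hn⟩ := IsPGroup.iff_card.1 S.isPGroup'
  rw [hn] at h1
  have h2 : 3 ≤ n := by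
    by_contra hcon
    have h4 : 3 ^ n ≤ 3 ^ 2 := Nat.pow_le_pow_right (by norm_num) (by omega)
    norm_num at h4
    omega
  have h4 : 3 ^ 3 ∣ Nat.card (S : Subgroup K) := by
    rw [hn]; exact pow_dvd_pow 3 h2
  exact h4.trans (Subgroup.card_subgroup_dvd_card _)

theorem false_of_notAb (h : Bad K) (hn : ∃ S : Sylow 3 K, ¬ IsMulCommutative (S : Subgroup K)) : False := by
  obtain ⟨S, hS⟩ := hn
  exact hS ⟨⟨fun a b => Subtype.ext ((h.1 S a a.2).2 b b.2)⟩⟩

/-- **The wreath product lemma**: `x, s` of order 3, the conjugates of `x` under `s` commute; then `x` and `s` commute. -/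
theorem comm (h : Bad K) {x s : K} (hx : x ^ 3 = 1) (hs : s ^ 3 = 1) (h1 : x * (s * x * s⁻¹) = (s * x * s⁻¹) * x)
    (h2 : x * (s⁻¹ * x * s) = (s⁻¹ * x * s) * x) : x * s = s * x := by
  have hp3 : Fact (Nat.Prime 3) := ⟨Nat.prime_three⟩
  set y := s * x * s⁻¹ with hy
  set z := s⁻¹ * x * s with hz
  have hsy : s * y * s⁻¹ = z := by
    have : s * s = s⁻¹ := by
      rw [eq_inv_iff_mul_eq_one, ← pow_two, ← pow_succ, hs]
    calc s * y * s⁻¹ = (s * s) * x * (s * s)⁻¹ := by rw [hy]; group
      _ = z := by rw [this, hz, inv_inv]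
  have hsx : s * x * s⁻¹ = y := rfl
  have hsz : s * z * s⁻¹ = x := by rw [hz]; group
  have hyz : y * z = z * y := by
    have h3 : s * (x * y) * s⁻¹ = s * (y * x) * s⁻¹ := by rw [h1]
    calc y * z = (s * x * s⁻¹) * (s * y * s⁻¹) := by rw [hsy]
      _ = s * (x * y) * s⁻¹ := by group
      _ = s * (y * x) * s⁻¹ := h3
      _ = (s * y * s⁻¹) * (s * x * s⁻¹) := by group
      _ = z * y := by rw [hsy]
  have hy3 : y ^ 3 = 1 := by rw [hy, conj_pow, hx]; simp
  have hz3 : z ^ 3 = 1 := by
    have : z = s⁻¹ * x * (s⁻¹)⁻¹ := by rw [inv_inv]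
    rw [this, conj_pow, hx]; simp
  -- the group `N = ⟨x, y, z⟩`
  let A : Set K := {x, y, z}
  have hcomm : ∀ a ∈ A, ∀ b ∈ A, a * b = b * a := by
    rintro a (rfl | rfl | rfl) b (rfl | rfl | rfl)
    · rfl
    · exact h1
    · exact h2
    · exact h1.symm
    · rfl
    · exact hyz
    · exact h2.symm
    · exact hyz.symm
    · rfl
  have hNc : ∀ a ∈ closure A, ∀ b ∈ closure A, a * b = b * a := by
    have h3 : closure A ≤ centralizer A := by
      rw [closure_le]
      intro a ha
      rw [SetLike.mem_coe, mem_centralizer_iff]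
      exact fun b hb => hcomm b hb a ha
    have h4 : closure A ≤ centralizer (closure A : Set K) := by
      rw [closure_le]
      intro a ha
      rw [SetLike.mem_coe, mem_centralizer_iff]
      intro b hb
      exact (mem_centralizer_iff.1 (h3 hb) a ha).symm
    intro a ha b hb
    exact (mem_centralizer_iff.1 (h4 ha) b hb).symm
  have hN3 : ∀ a ∈ closure A, a ^ 3 = 1 := by
    intro a ha
    induction ha using closure_induction with
    | mem a ha =>
      rcases ha with rfl | rfl | rfl
      · exact hx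
      · exact hy3
      · exact hz3
    | one => exact one_pow 3
    | mul a b ha hb iha ihb =>
      have : Commute a b := hNc a ha b hb
      rw [this.mul_pow, iha, ihb, one_mul]
    | inv a ha iha => rw [inv_pow, iha, inv_one]
  have hNp : IsPGroup 3 (closure A) := fun a => ⟨1, Subtype.ext (by
    show (a : K) ^ 3 ^ 1 = 1
    rw [pow_one]; exact hN3 a a.2)⟩
  have hsN : ∀ a ∈ closure A, s * a * s⁻¹ ∈ closure A := by
    intro a ha
    induction ha using closure_induction with
    | mem a ha =>
      rcases ha with rfl | rfl | rfl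
      · rw [hsx]; exact subset_closure (by simp [A])
      · rw [hsy]; exact subset_closure (by simp [A])
      · rw [hsz]; exact subset_closure (by simp [A])
    | one => simp [one_mem]
    | mul a b ha hb iha ihb =>
      have : s * (a * b) * s⁻¹ = (s * a * s⁻¹) * (s * b * s⁻¹) := by group
      rw [this]; exact mul_mem iha ihb
    | inv a ha iha =>
      have : s * a⁻¹ * s⁻¹ = (s * a * s⁻¹)⁻¹ := by group
      rw [this]; exact inv_mem iha
  have hsn : s ∈ normalizer (closure A : Set K) := by
    rw [mem_normalizer_iff]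
    intro a
    refine ⟨hsN a, fun ha => ?_⟩
    have h3 := hsN _ (hsN _ ha)
    have h5 : s * (s * (s * a * s⁻¹) * s⁻¹) * s⁻¹ = (s ^ 3) * a * (s ^ 3)⁻¹ := by
      rw [pow_succ, pow_two]; group
    rw [h5, hs] at h3
    simpa using h3
  have hsp : IsPGroup 3 (zpowers s) := by
    rintro ⟨y, hy⟩
    obtain ⟨k, rfl⟩ := mem_zpowers_iff.1 hy
    refine ⟨1, Subtype.ext ?_⟩
    show (s ^ k) ^ 3 ^ 1 = 1
    rw [pow_one, ← zpow_natCast, ← zpow_mul, mul_comm, zpow_mul, zpow_natCast, hs, one_zpow]
  have hP : IsPGroup 3 (zpowers s ⊔ closure A : Subgroup K) :=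
    hsp.to_sup_of_normal_right' hNp (by rwa [zpowers_le])
  exact (h.of_pgroup hP x (mem_sup_right (subset_closure (by simp [A])))).2 s (mem_sup_left (mem_zpowers s))

/-- the same, through a quotient by a central subgroup -/
theorem kill (h : Bad K) {H : Type*} [Group H] (π : H →* K) (hker : π.ker ≤ center H) {x s : H} (hx : x ^ 3 = 1)
    (hs : s ^ 3 = 1) (h1 : x * (s * x * s⁻¹) = (s * x * s⁻¹) * x)
    (h2 : x * (s⁻¹ * x * s) = (s⁻¹ * x * s) * x) (h3 : x * (s * x * s⁻¹)⁻¹ ∉ center H) : False := by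
  have h4 := h.comm (x := π x) (s := π s) (by rw [← map_pow, hx, map_one]) (by rw [← map_pow, hs, map_one])
    (by simpa only [map_mul, map_inv] using congrArg π h1) (by simpa only [map_mul, map_inv] using congrArg π h2)
  have h5 : x * (s * x * s⁻¹)⁻¹ ∈ π.ker := by
    rw [MonoidHom.mem_ker]
    simp only [map_mul, map_inv]
    rw [← h4]; group
  exact h3 (hker h5)

end Bad

end Cfsg.Agent.H271.LB3
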