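import Cfsg.Agent.H271.LB3.Base
import Cfsg.Agent.H356.SLTorus
import Cfsg.Agent.H356.SLTwo

/-!
# Killing by three permuted `SL₂`s, by diagonal matrices, by elements of order 9
-/

set_option autoImplicit false
set_option linter.unusedSectionVars false
set_option linter.unusedVariables false

open Subgroup Matrix

namespace Cfsg.Agent.H271.LB3

open Cfsg.Agent.H356.SLTwo Cfsg.Agent.H356.SLTorus

namespace Bad

variable {K : Type*} [Group K]

/-- an element of order 9 in an `SL₂` -/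
theorem kill_nine (h : Bad K) {F : Type*} [Field F] [Fintype F] (h3 : (3 : F) ≠ 0) (h9 : 9 ∣ Fintype.card F ^ 2 - 1)
    {H : Type*} [Group H] (π : H →* K) (hker : π.ker ≤ center H) (f : Matrix.SpecialLinearGroup (Fin 2) F →* H)
    (hf : Function.Injective f) : False := by
  obtain ⟨A, -, -, a, -, ha⟩ := exists_one (F := F) h3 (n := 2) (by rw [Nat.card_eq_fintype_card]; exact h9) π hker f hf
  exact h.not_nine ha

/-- three commuting `SL₂`s permuted by an element of order 3 -/
theorem kill_three (h : Bad K) {F : Type*} [Field F] {H : Type*} [Group H] (π : H →* K) (hker : π.ker ≤ center H)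
    (f₀ f₁ f₂ : Matrix.SpecialLinearGroup (Fin 2) F →* H) (hf : Function.Injective f₀)
    (c01 : ∀ a b, f₀ a * f₁ b = f₁ b * f₀ a) (c02 : ∀ a b, f₀ a * f₂ b = f₂ b * f₀ a) {s : H} (hs : s ^ 3 = 1)
    (h01 : ∀ a, s * f₀ a = f₁ a * s) (h20 : ∀ a, s * f₂ a = f₀ a * s) : False := by
  have e1 : s * f₀ (X3 F) * s⁻¹ = f₁ (X3 F) := by rw [h01]; group
  have e2 : s⁻¹ * f₀ (X3 F) * s = f₂ (X3 F) := by
    rw [mul_assoc, ← h20]; group
  refine h.kill π hker (x := f₀ (X3 F)) (s := s) (by rw [← map_pow, X3_cube, map_one]) hs ?_ ?_ ?_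
  · rw [e1]; exact c01 _ _
  · rw [e2]; exact c02 _ _
  · rw [e1]
    intro hc
    have h1 : X3 F ∈ center (Matrix.SpecialLinearGroup (Fin 2) F) := by
      rw [mem_center_iff]
      intro b
      apply hf
      rw [map_mul, map_mul]
      have h2 := mem_center_iff.1 hc (f₀ b)
      have h3 : f₀ b * (f₁ (X3 F))⁻¹ = (f₁ (X3 F))⁻¹ * f₀ b := by
        have := c01 b (X3 F)⁻¹
        rwa [map_inv] at this
      have h4 : f₀ b * f₀ (X3 F) * (f₁ (X3 F))⁻¹ = f₀ (X3 F) * f₀ b * (f₁ (X3 F))⁻¹ := by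
        calc f₀ b * f₀ (X3 F) * (f₁ (X3 F))⁻¹ = f₀ b * (f₀ (X3 F) * (f₁ (X3 F))⁻¹) := by group
          _ = f₀ (X3 F) * (f₁ (X3 F))⁻¹ * f₀ b := h2
          _ = f₀ (X3 F) * ((f₁ (X3 F))⁻¹ * f₀ b) := by group
          _ = f₀ (X3 F) * (f₀ b * (f₁ (X3 F))⁻¹) := by rw [h3]
          _ = f₀ (X3 F) * f₀ b * (f₁ (X3 F))⁻¹ := by group
      exact mul_right_cancel h4
    exact X3_ne_one (eq_one_of_center h1 (n := 1) (by rw [pow_one]; exact X3_cube))

end Bad

/-! ### permutation matrices -/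

section Perm

variable {F : Type*} [CommRing F] {ι : Type*} [Fintype ι] [DecidableEq ι]

/-- permutation matrix -/
def pm (F : Type*) [CommRing F] (σ : Equiv.Perm ι) : Matrix ι ι F := (1 : Matrix ι ι F).submatrix σ id

theorem pm_mul (σ : Equiv.Perm ι) (M : Matrix ι ι F) : pm F σ * M = M.submatrix σ id := by
  ext i j
  rw [pm, Matrix.mul_apply, Finset.sum_eq_single (σ i)]
  · rw [submatrix_apply, id, one_apply_eq, one_mul, submatrix_apply, id]
  · intro b _ hb
    rw [submatrix_apply, id, one_apply_ne (Ne.symm hb), zero_mul]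
  · intro h; exact absurd (Finset.mem_univ _) h

theorem mul_pm (σ : Equiv.Perm ι) (M : Matrix ι ι F) : M * pm F σ = M.submatrix id σ.symm := by
  ext i j
  rw [pm, Matrix.mul_apply, Finset.sum_eq_single (σ.symm j)]
  · rw [submatrix_apply, id, Equiv.apply_symm_apply, one_apply_eq, mul_one, submatrix_apply, id]
  · intro b _ hb
    have : σ b ≠ j := by
      rintro rfl
      exact hb (by simp)
    rw [submatrix_apply, id, one_apply_ne this, mul_zero]
  · intro h; exact absurd (Finset.mem_univ _) h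

theorem pm_conj (σ : Equiv.Perm ι) (M N : Matrix ι ι F) (h : ∀ i j, N i j = M (σ i) (σ j)) :
    pm F σ * M = N * pm F σ := by
  rw [pm_mul, mul_pm]
  ext i j
  rw [submatrix_apply, submatrix_apply, id, id, h, Equiv.apply_symm_apply]

theorem pm_cube (σ : Equiv.Perm ι) (h : σ ^ 3 = 1) : pm F σ ^ 3 = 1 := by
  have h1 : ∀ i, σ (σ (σ i)) = i := by
    intro i
    have := congrArg (fun τ : Equiv.Perm ι => τ i) h
    simpa [pow_succ] using this
  have h2 : pm F σ ^ 3 = pm F σ * (pm F σ * (pm F σ * 1)) := by rw [pow_succ, pow_two, mul_one, mul_assoc]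
  rw [h2, pm_mul, pm_mul, pm_mul]
  ext i j
  show (1 : Matrix ι ι F) (σ (σ (σ i))) j = _
  rw [h1]

theorem det_pm (σ : Equiv.Perm ι) (h : σ ^ 3 = 1) : (pm F σ).det = 1 := by
  rw [pm, det_permute]
  have h1 : (Equiv.Perm.sign σ) ^ 3 = 1 := by rw [← map_pow, h, map_one]
  have h2 : Equiv.Perm.sign σ = 1 := by
    rcases Int.units_eq_one_or (Equiv.Perm.sign σ) with h3 | h3
    · exact h3
    · rw [h3] at h1
      exact absurd h1 (by decide)
  rw [h2]; simp

end Perm

end Cfsg.Agent.H271.LB3
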