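import Cfsg.Agent.H356.Num
import Cfsg.Agent.H356.NumU

/-!
# Orders of `PSL` and `PSU` of small dimension and the divisor 27
-/

set_option autoImplicit false

namespace Cfsg.Agent.H271.LB3.Num27

open Cfsg.Agent.H356.Num

theorem sq_dvd {a c : ℕ} (hc : c % 3 ≠ 0) (ha : 3 ∣ a) (h : 27 ∣ a * a * c) : 9 ∣ a := by
  have h1 : 27 ∣ a * a := by
    have : Nat.Coprime (3 ^ 3) c := cop3 hc 3
    exact this.dvd_of_dvd_mul_right h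
  obtain ⟨b, rfl⟩ := ha
  have h2 : 3 ∣ b * b := by
    obtain ⟨k, hk⟩ := h1
    exact ⟨k, by nlinarith⟩
  have h3 : 3 ∣ b := by
    rcases (Nat.prime_three.dvd_mul).1 h2 with h | h <;> exact h
  obtain ⟨c', rfl⟩ := h3
  exact ⟨c', by ring⟩

/-- `27 ∣ q²-1` for `L₃(q)`, `q = 2 mod 3` -/
theorem psl3_two {q c : ℕ} (hq : q % 3 = 2) (h : Nat.gcd 3 (q - 1) * c = q ^ 3 * (q ^ 2 - 1) * (q ^ 3 - 1))
    (hd : 27 ∣ c) : 27 ∣ q ^ 2 - 1 := by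
  have h1 : 27 ∣ q ^ 3 * (q ^ 2 - 1) * (q ^ 3 - 1) := h ▸ dvd_mul_of_dvd_right hd _
  have h2 : Nat.Coprime (3 ^ 3) (q ^ 3 - 1) := cop3 (by
    rw [pow_sub_mod (m := 1) (by omega) (by
      have : q ^ 3 % 3 = 2 := by simp [Nat.pow_mod, hq]
      omega)]
    norm_num) 3
  have h3 : Nat.Coprime (3 ^ 3) (q ^ 3) := cop3 (by simp [Nat.pow_mod, hq]) 3
  exact h3.dvd_of_dvd_mul_left (h2.dvd_of_dvd_mul_right h1)

/-- `9 ∣ q-1` for `L₃(q)`, `q = 1 mod 3` -/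
theorem psl3_one {q c : ℕ} (hq : q % 3 = 1) (h : Nat.gcd 3 (q - 1) * c = q ^ 3 * (q ^ 2 - 1) * (q ^ 3 - 1))
    (hd : 27 ∣ c) : 9 ∣ q - 1 := by
  have hg : Nat.gcd 3 (q - 1) = 3 := Nat.gcd_eq_left (by omega)
  rw [hg] at h
  obtain ⟨r, rfl⟩ : ∃ r, q = 3 * r + 1 := ⟨q / 3, by omega⟩
  rw [Nat.add_sub_cancel]
  have h2 : (3 * r + 1) ^ 2 - 1 = 3 * (r * (3 * r + 2)) := by
    have : (3 * r + 1) ^ 2 = 3 * (r * (3 * r + 2)) + 1 := by ring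
    omega
  have h3 : (3 * r + 1) ^ 3 - 1 = 9 * (r * (3 * r ^ 2 + 3 * r + 1)) := by
    have : (3 * r + 1) ^ 3 = 9 * (r * (3 * r ^ 2 + 3 * r + 1)) + 1 := by ring
    omega
  rw [h2, h3] at h
  have h4 : c = 9 * (r * r * ((3 * r + 1) ^ 3 * (3 * r + 2) * (3 * r ^ 2 + 3 * r + 1))) := by
    have : 3 * c = 3 * (9 * (r * r * ((3 * r + 1) ^ 3 * (3 * r + 2) * (3 * r ^ 2 + 3 * r + 1)))) := by
      rw [h]; ring
    omega
  have h5 : 3 ∣ r * r * ((3 * r + 1) ^ 3 * (3 * r + 2) * (3 * r ^ 2 + 3 * r + 1)) := by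
    rw [h4] at hd
    exact Nat.dvd_of_mul_dvd_mul_left (show 0 < 9 by norm_num) (by norm_num; exact hd)
  have h6 : Nat.Coprime (3 ^ 1) ((3 * r + 1) ^ 3 * (3 * r + 2) * (3 * r ^ 2 + 3 * r + 1)) := by
    refine Nat.Coprime.mul_right (Nat.Coprime.mul_right (Nat.Coprime.pow_right _ ?_) ?_) ?_
    · exact cop3 (by omega) 1
    · exact cop3 (by omega) 1
    · exact cop3 (by
        have : 3 * r ^ 2 + 3 * r + 1 = 3 * (r ^ 2 + r) + 1 := by ring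
        omega) 1
  rw [pow_one] at h6
  have h7 : 3 ∣ r * r := h6.dvd_of_dvd_mul_right h5
  have h8 : 3 ∣ r := by
    rcases (Nat.prime_three.dvd_mul).1 h7 with h | h <;> exact h
  omega

/-- `9 ∣ q²-1` for `L₄(q)`, `q = 2 mod 3` -/
theorem psl4_two {q c : ℕ} (hq : q % 3 = 2)
    (h : Nat.gcd 4 (q - 1) * c = q ^ 6 * (q ^ 2 - 1) * (q ^ 3 - 1) * (q ^ 4 - 1)) (hd : 27 ∣ c) : 9 ∣ q ^ 2 - 1 := by
  have h1 : 27 ∣ q ^ 6 * (q ^ 2 - 1) * (q ^ 3 - 1) * (q ^ 4 - 1) := h ▸ dvd_mul_of_dvd_right hd _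
  refine sq_dvd (c := q ^ 6 * (q ^ 3 - 1) * (q ^ 2 + 1)) ?_ (three_dvd (by omega)) ?_
  · have e1 : q ^ 6 % 3 = 1 := by simp [Nat.pow_mod, hq]
    have e2 : (q ^ 3 - 1) % 3 = 1 := pow_sub_mod (m := 1) (by omega) (by
      have : q ^ 3 % 3 = 2 := by simp [Nat.pow_mod, hq]
      omega)
    have e3 : (q ^ 2 + 1) % 3 = 2 := by
      have := sq_mod (q := q) (by omega)
      omega
    rw [Nat.mul_mod, Nat.mul_mod (q ^ 6), e1, e2, e3]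
    norm_num
  · rw [four_sub] at h1
    convert h1 using 1
    ring

theorem psl5_two {q c : ℕ} (hq : q % 3 = 2)
    (h : Nat.gcd 5 (q - 1) * c = q ^ 10 * (q ^ 2 - 1) * (q ^ 3 - 1) * (q ^ 4 - 1) * (q ^ 5 - 1)) (hd : 27 ∣ c) :
    9 ∣ q ^ 2 - 1 := by
  have h1 : 27 ∣ q ^ 10 * (q ^ 2 - 1) * (q ^ 3 - 1) * (q ^ 4 - 1) * (q ^ 5 - 1) := h ▸ dvd_mul_of_dvd_right hd _
  refine sq_dvd (c := q ^ 10 * (q ^ 3 - 1) * (q ^ 2 + 1) * (q ^ 5 - 1)) ?_ (three_dvd (by omega)) ?_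
  · have e1 : q ^ 10 % 3 = 1 := by simp [Nat.pow_mod, hq]
    have e2 : (q ^ 3 - 1) % 3 = 1 := pow_sub_mod (m := 1) (by omega) (by
      have : q ^ 3 % 3 = 2 := by simp [Nat.pow_mod, hq]
      omega)
    have e3 : (q ^ 2 + 1) % 3 = 2 := by
      have := sq_mod (q := q) (by omega)
      omega
    have e4 : (q ^ 5 - 1) % 3 = 1 := pow_sub_mod (m := 1) (by omega) (by
      have : q ^ 5 % 3 = 2 := by simp [Nat.pow_mod, hq]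
      omega)
    rw [Nat.mul_mod, Nat.mul_mod (q ^ 10 * (q ^ 3 - 1)), Nat.mul_mod (q ^ 10), e1, e2, e3, e4]
    norm_num
  · rw [four_sub] at h1
    convert h1 using 1
    ring

theorem psu3_one {q c : ℕ} (hq : q % 3 = 1) (h : Nat.gcd 3 (q + 1) * c = q ^ 3 * (q ^ 2 - 1) * (q ^ 3 + 1))
    (hd : 27 ∣ c) : 27 ∣ q ^ 2 - 1 := by
  have h1 : 27 ∣ q ^ 3 * (q ^ 2 - 1) * (q ^ 3 + 1) := h ▸ dvd_mul_of_dvd_right hd _
  have e : q ^ 3 % 3 = 1 := by simp [Nat.pow_mod, hq]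
  have h2 : Nat.Coprime (3 ^ 3) (q ^ 3 + 1) := cop3 (by omega) 3
  have h3 : Nat.Coprime (3 ^ 3) (q ^ 3) := cop3 (by omega) 3
  exact h3.dvd_of_dvd_mul_left (h2.dvd_of_dvd_mul_right h1)

theorem psu3_two {q c : ℕ} (hq : q % 3 = 2) (h : Nat.gcd 3 (q + 1) * c = q ^ 3 * (q ^ 2 - 1) * (q ^ 3 + 1))
    (hd : 27 ∣ c) : 9 ∣ q + 1 := by
  have hg : Nat.gcd 3 (q + 1) = 3 := Nat.gcd_eq_left (by omega)
  rw [hg] at h
  obtain ⟨r, rfl⟩ : ∃ r, q = 3 * r + 2 := ⟨q / 3, by omega⟩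
  have h2 : (3 * r + 2) ^ 2 - 1 = 3 * ((r + 1) * (3 * r + 1)) := by
    have : (3 * r + 2) ^ 2 = 3 * ((r + 1) * (3 * r + 1)) + 1 := by ring
    omega
  have h3 : (3 * r + 2) ^ 3 + 1 = 9 * ((r + 1) * (3 * r ^ 2 + 3 * r + 1)) := by ring
  rw [h2, h3] at h
  have h4 : c = 9 * ((r + 1) * (r + 1) * ((3 * r + 2) ^ 3 * (3 * r + 1) * (3 * r ^ 2 + 3 * r + 1))) := by
    have : 3 * c = 3 * (9 * ((r + 1) * (r + 1) * ((3 * r + 2) ^ 3 * (3 * r + 1) * (3 * r ^ 2 + 3 * r + 1)))) := by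
      rw [h]; ring
    omega
  have h5 : 3 ∣ (r + 1) * (r + 1) * ((3 * r + 2) ^ 3 * (3 * r + 1) * (3 * r ^ 2 + 3 * r + 1)) := by
    rw [h4] at hd
    exact Nat.dvd_of_mul_dvd_mul_left (show 0 < 9 by norm_num) (by norm_num; exact hd)
  have h6 : Nat.Coprime (3 ^ 1) ((3 * r + 2) ^ 3 * (3 * r + 1) * (3 * r ^ 2 + 3 * r + 1)) := by
    refine Nat.Coprime.mul_right (Nat.Coprime.mul_right (Nat.Coprime.pow_right _ ?_) ?_) ?_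
    · exact cop3 (by omega) 1
    · exact cop3 (by omega) 1
    · exact cop3 (by
        have : 3 * r ^ 2 + 3 * r + 1 = 3 * (r ^ 2 + r) + 1 := by ring
        omega) 1
  rw [pow_one] at h6
  have h7 : 3 ∣ (r + 1) * (r + 1) := h6.dvd_of_dvd_mul_right h5
  have h8 : 3 ∣ r + 1 := by
    rcases (Nat.prime_three.dvd_mul).1 h7 with h | h <;> exact h
  omega

theorem psu4_one {q c : ℕ} (hq : q % 3 = 1)
    (h : Nat.gcd 4 (q + 1) * c = q ^ 6 * (q ^ 2 - 1) * (q ^ 3 + 1) * (q ^ 4 - 1)) (hd : 27 ∣ c) : 9 ∣ q ^ 2 - 1 := by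
  have h1 : 27 ∣ q ^ 6 * (q ^ 2 - 1) * (q ^ 3 + 1) * (q ^ 4 - 1) := h ▸ dvd_mul_of_dvd_right hd _
  refine sq_dvd (c := q ^ 6 * (q ^ 3 + 1) * (q ^ 2 + 1)) ?_ (three_dvd (by omega)) ?_
  · have e1 : q ^ 6 % 3 = 1 := by simp [Nat.pow_mod, hq]
    have e2 : (q ^ 3 + 1) % 3 = 2 := by
      have : q ^ 3 % 3 = 1 := by simp [Nat.pow_mod, hq]
      omega
    have e3 : (q ^ 2 + 1) % 3 = 2 := by
      have := sq_mod (q := q) (by omega)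
      omega
    rw [Nat.mul_mod, Nat.mul_mod (q ^ 6), e1, e2, e3]
    norm_num
  · rw [four_sub] at h1
    convert h1 using 1
    ring

theorem psu5_one {q c : ℕ} (hq : q % 3 = 1)
    (h : Nat.gcd 5 (q + 1) * c = q ^ 10 * (q ^ 2 - 1) * (q ^ 3 + 1) * (q ^ 4 - 1) * (q ^ 5 + 1)) (hd : 27 ∣ c) :
    9 ∣ q ^ 2 - 1 := by
  have h1 : 27 ∣ q ^ 10 * (q ^ 2 - 1) * (q ^ 3 + 1) * (q ^ 4 - 1) * (q ^ 5 + 1) := h ▸ dvd_mul_of_dvd_right hd _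
  refine sq_dvd (c := q ^ 10 * (q ^ 3 + 1) * (q ^ 2 + 1) * (q ^ 5 + 1)) ?_ (three_dvd (by omega)) ?_
  · have e1 : q ^ 10 % 3 = 1 := by simp [Nat.pow_mod, hq]
    have e2 : (q ^ 3 + 1) % 3 = 2 := by
      have : q ^ 3 % 3 = 1 := by simp [Nat.pow_mod, hq]
      omega
    have e3 : (q ^ 2 + 1) % 3 = 2 := by
      have := sq_mod (q := q) (by omega)
      omega
    have e4 : (q ^ 5 + 1) % 3 = 2 := by
      have : q ^ 5 % 3 = 1 := by simp [Nat.pow_mod, hq]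
      omega
    rw [Nat.mul_mod, Nat.mul_mod (q ^ 10 * (q ^ 3 + 1)), Nat.mul_mod (q ^ 10), e1, e2, e3, e4]
    norm_num
  · rw [four_sub] at h1
    convert h1 using 1
    ring

end Cfsg.Agent.H271.LB3.Num27
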