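import Cfsg.Agent.H271.LB3.PSL
import Cfsg.Agent.H104.OrthEmb

/-!
# `PΩ(q)`, `3 ∤ q`
-/

set_option autoImplicit false
set_option linter.unusedSectionVars false
set_option linter.unusedVariables false

open Subgroup Matrix
open scoped commutatorElement

namespace Cfsg.Agent.H271.LB3.Orth

open Cfsg QuadraticMap Cfsg.Agent.LieClassical Cfsg.Agent.H104.OrthEmb Cfsg.Agent.H356.SLTwo
  Cfsg.Agent.H356 Cfsg.Agent.H356.KillPSL Cfsg.Agent.H271.LB3 Cfsg.Agent.H271.LB3.PSL

variable {F : Type} [Field F] {ι : Type} [Fintype ι] [DecidableEq ι]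

section trans

variable {Q : QuadraticForm F (ι → F)} (hQ : (polarBilin Q).Nondegenerate) (hn : 3 ≤ Fintype.card ι)
  (hs : ∃ u : ι → F, u ≠ 0 ∧ Q u = 0)

theorem mem_omega {H : Type*} [Group H] (f : H →* Cfsg.isometryGroup F (⇑Q)) {x : H} (hx : x ∈ commutator H) :
    f x ∈ Cfsg.Omega F (⇑Q) := by
  have h2 : f x ∈ (commutator H).map f := ⟨x, hx, rfl⟩
  have h3 : (commutator H).map f ≤ commutator (Cfsg.isometryGroup F (⇑Q)) := by
    rw [commutator_def, commutator_def, Subgroup.map_commutator]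
    exact Subgroup.commutator_mono le_top le_top
  exact h3 h2

include hQ hn hs

/-- commuting conjugates in the isometry group -/
theorem kill_comm (h : Bad (Cfsg.POmega F (⇑Q))) {H : Type*} [Group H] (f : H →* Cfsg.isometryGroup F (⇑Q))
    (hf : Function.Injective f) {x s : H} (hxc : x ∈ commutator H) (hsc : s ∈ commutator H) (hx : x ^ 3 = 1)
    (hs3 : s ^ 3 = 1) (h1 : x * (s * x * s⁻¹) = (s * x * s⁻¹) * x)
    (h2 : x * (s⁻¹ * x * s) = (s⁻¹ * x * s) * x) (h3 : x * s ≠ s * x) : False := by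
  let g : commutator H →* Cfsg.Omega F (⇑Q) := (f.comp (commutator H).subtype).codRestrict _
    fun x => mem_omega f x.2
  have hg : Function.Injective g := fun a b hab => Subtype.ext (hf (congrArg Subtype.val hab))
  let X : commutator H := ⟨x, hxc⟩
  let S : commutator H := ⟨s, hsc⟩
  have hX : X ^ 3 = 1 := Subtype.ext hx
  have hS : S ^ 3 = 1 := Subtype.ext hs3
  have e1 : X * (S * X * S⁻¹) = (S * X * S⁻¹) * X := Subtype.ext h1
  have e2 : X * (S⁻¹ * X * S) = (S⁻¹ * X * S) * X := Subtype.ext h2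
  refine h.kill (QuotientGroup.mk' (center (Cfsg.Omega F (⇑Q)))) (by rw [QuotientGroup.ker_mk']) (x := g X)
    (s := g S) (by rw [← map_pow, hX, map_one]) (by rw [← map_pow, hS, map_one])
    (by simpa only [map_mul, map_inv] using congrArg g e1) (by simpa only [map_mul, map_inv] using congrArg g e2) ?_
  intro hc
  have h4 : g (X * (S * X * S⁻¹)⁻¹) = 1 := by
    refine center_free hQ hn hs Nat.prime_three (by norm_num) _ ?_ ?_
    · rw [← map_pow]
      have : (X * (S * X * S⁻¹)⁻¹) ^ 3 = 1 := by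
        have hc2 : Commute X (S * X * S⁻¹)⁻¹ := Commute.inv_right e1
        rw [hc2.mul_pow, hX, one_mul, inv_pow, conj_pow, hX]
        simp
      rw [this, map_one]
    · rw [QuotientGroup.mk'_apply, QuotientGroup.eq_one_iff]
      simpa only [map_mul, map_inv] using hc
  have h5 : X * (S * X * S⁻¹)⁻¹ = 1 := hg (h4.trans (map_one g).symm)
  have h6 : x * (s * x * s⁻¹)⁻¹ = 1 := congrArg Subtype.val h5
  apply h3
  have h7 := mul_inv_eq_one.1 h6
  calc x * s = (s * x * s⁻¹) * s := by rw [← h7]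
    _ = s * x := by group

/-- elements of order 9 -/
theorem nine [Fintype F] {w : ℕ} (hw : 3 ≤ w)
    (hemb : ∃ f : Cfsg.isometryGroup F (Cfsg.quadFormPlus w F) →* Cfsg.isometryGroup F (⇑Q),
      Function.Injective f) (h3 : Fintype.card F % 3 ≠ 0) (h : Bad (Cfsg.POmega F (⇑Q))) :
    ¬ 9 ∣ Fintype.card F ^ 2 - 1 := by
  intro h9
  obtain ⟨f, hf⟩ := hemb
  obtain ⟨f₁, hf₁⟩ := exists_emb_sl (F := F) w
  have hb : 2 * 1 ≤ w := by omega
  have hH : commutator (Matrix.SpecialLinearGroup (Fin w) F) = ⊤ := SLGen.commutator_eq_top (by simpa using hw)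
  let g : Matrix.SpecialLinearGroup (Fin w) F →* Cfsg.Omega F (⇑Q) := (f.comp f₁).codRestrict _
    fun x => mem_omega (f.comp f₁) (by rw [hH]; trivial)
  have hg : Function.Injective g := fun a b hab => hf₁ (hf (congrArg Subtype.val hab))
  exact h.kill_nine (three_ne_zero_of h3) h9 (QuotientGroup.mk' (center (Cfsg.Omega F (⇑Q))))
    (by rw [QuotientGroup.ker_mk']) (g.comp (KillPSL.f hb 0)) (hg.comp (f_injective hb 0))

end trans

/-! ### diagonal matrices in `SL_w` -/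

theorem diag_facts {n : ℕ} (hn : 3 ≤ n) {ω : F} (hω : ω ^ 3 = 1) (hω1 : ω ≠ 1) :
    ∃ x s : Matrix.SpecialLinearGroup (Fin n) F, x ^ 3 = 1 ∧ s ^ 3 = 1 ∧
      x * (s * x * s⁻¹) = (s * x * s⁻¹) * x ∧ x * (s⁻¹ * x * s) = (s⁻¹ * x * s) * x ∧ x * s ≠ s * x := by
  let x : Matrix.SpecialLinearGroup (Fin n) F := dg (dt ω) (prod_dt (by omega) hω)
  let s : Matrix.SpecialLinearGroup (Fin n) F := ⟨pm F (sd hn), det_pm _ (sd_cube hn)⟩
  have hι := (lin F n).inj
  have hx : KillPSL.iota F n x = diagonal (dt ω) := rfl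
  have hs : KillPSL.iota F n s = pm F (sd hn) := rfl
  have hss : KillPSL.iota F n s * KillPSL.iota F n s⁻¹ = 1 := by rw [← map_mul, mul_inv_cancel, map_one]
  have hss' : KillPSL.iota F n s⁻¹ * KillPSL.iota F n s = 1 := by rw [← map_mul, inv_mul_cancel, map_one]
  have hy : KillPSL.iota F n (s * x * s⁻¹) = diagonal (dt ω ∘ sd hn) := by
    rw [map_mul, map_mul, hx, hs, pm_diag, ← hs, mul_assoc, hss, mul_one]
  have hz : KillPSL.iota F n (s⁻¹ * x * s) = diagonal (dt ω ∘ (sd hn).symm) := by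
    have e1 : pm F (sd hn) * diagonal (dt ω ∘ (sd hn).symm) = diagonal (dt ω) * pm F (sd hn) := by
      rw [pm_diag]
      congr 2
      funext i
      simp
    rw [map_mul, map_mul, hx, hs, mul_assoc, ← e1, ← mul_assoc, ← hs, hss', one_mul]
  have hcomm : ∀ t t' : Fin n → F, diagonal t * diagonal t' = diagonal t' * diagonal t := by
    intro t t'
    rw [diagonal_mul_diagonal, diagonal_mul_diagonal]
    congr 1
    funext i
    exact mul_comm _ _
  refine ⟨x, s, ?_, ?_, ?_, ?_, ?_⟩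
  · apply hι
    rw [map_pow, hx, map_one, diagonal_pow, ← diagonal_one]
    congr 1
    funext i
    exact dt_cube hω i
  · apply hι
    rw [map_pow, hs, map_one]
    exact pm_cube _ (sd_cube hn)
  · apply hι
    rw [map_mul _ x, map_mul _ _ x, hx, hy, hcomm]
  · apply hι
    rw [map_mul _ x, map_mul _ _ x, hx, hz, hcomm]
  · intro hc
    have h1 : s * x * s⁻¹ = x := by rw [← hc]; group
    have h2 : diagonal (dt ω ∘ sd hn) = diagonal (dt ω) := by rw [← hy, h1, hx]
    have h3 := congrFun (diagonal_injective h2) ⟨0, by omega⟩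
    simp only [Function.comp_apply] at h3
    rw [sd_zero hn] at h3
    simp only [dt] at h3
    norm_num at h3
    exact hω1 h3.symm

/-! ### four copies of `x² + xy + y²` -/

section four

/-- the form `Σ xᵢ² + xᵢyᵢ + yᵢ²` -/
def Q4 (v : Fin 4 → F × F) : F := ∑ i, ((v i).1 ^ 2 + (v i).1 * (v i).2 + (v i).2 ^ 2)

/-- rotation of order 3 -/
def rot : (F × F) ≃ₗ[F] (F × F) where
  toFun v := (-v.1 - v.2, v.1)
  invFun v := (v.2, -v.1 - v.2)
  left_inv v := by
    apply Prod.ext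
    · rfl
    · show -(-v.1 - v.2) - v.1 = v.2
      ring
  right_inv v := by
    apply Prod.ext
    · show -v.2 - (-v.1 - v.2) = v.1
      ring
    · rfl
  map_add' v w := by ext <;> simp <;> ring
  map_smul' c v := by ext <;> simp <;> ring

/-- rotation on one block -/
def R (k : Fin 4) : ReflGen.orth (F := F) (Q4 (F := F)) :=
  ⟨LinearEquiv.piCongrRight fun i => if i = k then rot else LinearEquiv.refl F _, by
    intro v
    unfold Q4
    refine Finset.sum_congr rfl fun i _ => ?_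
    rw [LinearEquiv.piCongrRight_apply]
    split_ifs
    · show (-(v i).1 - (v i).2) ^ 2 + (-(v i).1 - (v i).2) * (v i).1 + (v i).1 ^ 2 = _
      ring
    · rfl⟩

/-- permutation of the blocks -/
def Pm (σ : Equiv.Perm (Fin 4)) : ReflGen.orth (F := F) (Q4 (F := F)) :=
  ⟨LinearEquiv.funCongrLeft F (F × F) σ, by
    intro v
    unfold Q4
    exact Equiv.sum_comp σ (fun i => (v i).1 ^ 2 + (v i).1 * (v i).2 + (v i).2 ^ 2)⟩

theorem orth_ext {a b : ReflGen.orth (F := F) (Q4 (F := F))}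
    (h : ∀ v : Fin 4 → F × F, ∀ i, (a : (Fin 4 → F × F) ≃ₗ[F] (Fin 4 → F × F)) v i =
      (b : (Fin 4 → F × F) ≃ₗ[F] (Fin 4 → F × F)) v i) : a = b :=
  Subtype.ext (LinearEquiv.ext fun v => funext (h v))

theorem R_apply (k : Fin 4) (v : Fin 4 → F × F) (i : Fin 4) :
    ((R k : ReflGen.orth (F := F) (Q4 (F := F))) : (Fin 4 → F × F) ≃ₗ[F] (Fin 4 → F × F)) v i =
      if i = k then rot (v i) else v i := by
  show (LinearEquiv.piCongrRight fun i => if i = k then rot else LinearEquiv.refl F (F × F)) v i = _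
  rw [LinearEquiv.piCongrRight_apply]
  split_ifs <;> rfl

theorem Pm_apply (σ : Equiv.Perm (Fin 4)) (v : Fin 4 → F × F) (i : Fin 4) :
    ((Pm σ : ReflGen.orth (F := F) (Q4 (F := F))) : (Fin 4 → F × F) ≃ₗ[F] (Fin 4 → F × F)) v i = v (σ i) := rfl

theorem coe_mul (a b : ReflGen.orth (F := F) (Q4 (F := F))) (v : Fin 4 → F × F) :
    ((a * b : ReflGen.orth (F := F) (Q4 (F := F))) : (Fin 4 → F × F) ≃ₗ[F] (Fin 4 → F × F)) v =
      (a : (Fin 4 → F × F) ≃ₗ[F] (Fin 4 → F × F)) ((b : (Fin 4 → F × F) ≃ₗ[F] (Fin 4 → F × F)) v) := rfl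

theorem Pm_mul (σ τ : Equiv.Perm (Fin 4)) : (Pm σ * Pm τ : ReflGen.orth (F := F) (Q4 (F := F))) = Pm (τ * σ) := rfl

theorem Pm_one : (Pm 1 : ReflGen.orth (F := F) (Q4 (F := F))) = 1 := rfl

theorem Pm_R (σ : Equiv.Perm (Fin 4)) {k l : Fin 4} (h : σ l = k) :
    (Pm σ * R k : ReflGen.orth (F := F) (Q4 (F := F))) = R l * Pm σ := by
  apply orth_ext
  intro v i
  rw [coe_mul, coe_mul, Pm_apply, R_apply, R_apply, Pm_apply]
  by_cases hi : i = l
  · subst hi; rw [if_pos h, if_pos rfl]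
  · rw [if_neg hi, if_neg]
    rw [← h]
    exact fun e => hi (σ.injective e)

theorem rot_rot_rot (u : F × F) : rot (rot (rot u)) = u := by
  apply Prod.ext
  · show (-(-(-u.1 - u.2) - u.1) - (-u.1 - u.2) : F) = u.1
    ring
  · show (-(-u.1 - u.2) - u.1 : F) = u.2
    ring

theorem R_cube (k : Fin 4) : (R k : ReflGen.orth (F := F) (Q4 (F := F))) ^ 3 = 1 := by
  apply orth_ext
  intro v i
  rw [pow_succ, pow_two, coe_mul, coe_mul, R_apply, R_apply, R_apply]
  show _ = v i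
  split_ifs
  · exact rot_rot_rot _
  · rfl

theorem R_comm (k l : Fin 4) : (R k * R l : ReflGen.orth (F := F) (Q4 (F := F))) = R l * R k := by
  apply orth_ext
  intro v i
  rw [coe_mul, coe_mul, R_apply, R_apply, R_apply, R_apply]
  split_ifs <;> rfl

/-- the 3-cycle -/
def c4 : Equiv.Perm (Fin 4) := Equiv.swap 0 1 * Equiv.swap 1 2

theorem facts : ∃ x s : ReflGen.orth (F := F) (Q4 (F := F)), x ∈ commutator (ReflGen.orth (F := F) (Q4 (F := F))) ∧
    s ∈ commutator (ReflGen.orth (F := F) (Q4 (F := F))) ∧ x ^ 3 = 1 ∧ s ^ 3 = 1 ∧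
      x * (s * x * s⁻¹) = (s * x * s⁻¹) * x ∧ x * (s⁻¹ * x * s) = (s⁻¹ * x * s) * x ∧ x * s ≠ s * x := by
  let A : ReflGen.orth (F := F) (Q4 (F := F)) := R 0
  let B : ReflGen.orth (F := F) (Q4 (F := F)) := R 1
  let C : ReflGen.orth (F := F) (Q4 (F := F)) := R 2
  let s : ReflGen.orth (F := F) (Q4 (F := F)) := Pm c4
  have sA : s * A = C * s := Pm_R c4 (by decide)
  have sB : s * B = A * s := Pm_R c4 (by decide)
  have sC : s * C = B * s := Pm_R c4 (by decide)
  have tA : s * A * s⁻¹ = C := by rw [sA]; group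
  have tB : s * B * s⁻¹ = A := by rw [sB]; group
  have uA : s⁻¹ * A * s = B := by rw [mul_assoc, ← sB]; group
  have uB : s⁻¹ * B * s = C := by rw [mul_assoc, ← sC]; group
  have hBB : B * B = B⁻¹ := by
    rw [eq_inv_iff_mul_eq_one, ← pow_two, ← pow_succ]
    exact R_cube 1
  have hss : s ^ 3 = 1 := by
    have : c4 * (c4 * c4) = 1 := by decide
    calc s ^ 3 = s * s * s := by rw [pow_succ, pow_two]
      _ = Pm (c4 * (c4 * c4)) := rfl
      _ = 1 := by rw [this]; rfl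
  have hAB : Commute A B := R_comm 0 1
  have hAC : Commute A C := R_comm 0 2
  have hBC : Commute B C := R_comm 1 2
  have hx1 : s * (A * (B * B)) * s⁻¹ = C * (A * A) := by
    calc s * (A * (B * B)) * s⁻¹ = (s * A * s⁻¹) * ((s * B * s⁻¹) * (s * B * s⁻¹)) := by group
      _ = _ := by rw [tA, tB]
  have hx2 : s⁻¹ * (A * (B * B)) * s = B * (C * C) := by
    calc s⁻¹ * (A * (B * B)) * s = (s⁻¹ * A * s) * ((s⁻¹ * B * s) * (s⁻¹ * B * s)) := by group
      _ = _ := by rw [uA, uB]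
  refine ⟨A * (B * B), s, ?_, ?_, ?_, hss, ?_, ?_, ?_⟩
  · have : A * (B * B) = ⁅A, s⁻¹⁆ := by
      rw [hBB, commutatorElement_def, inv_inv, mul_assoc, mul_assoc]
      congr 1
      rw [← uA]; group
    rw [this]
    exact commutator_mem_commutator (mem_top _) (mem_top _)
  · have : s = ⁅(Pm (Equiv.swap 0 1) : ReflGen.orth (F := F) (Q4 (F := F))), Pm (Equiv.swap 1 2)⁆ := by
      have i1 : (Pm (Equiv.swap 0 1) : ReflGen.orth (F := F) (Q4 (F := F)))⁻¹ = Pm (Equiv.swap 0 1) := by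
        rw [inv_eq_iff_mul_eq_one, Pm_mul, Equiv.swap_mul_self]; rfl
      have i2 : (Pm (Equiv.swap 1 2) : ReflGen.orth (F := F) (Q4 (F := F)))⁻¹ = Pm (Equiv.swap 1 2) := by
        rw [inv_eq_iff_mul_eq_one, Pm_mul, Equiv.swap_mul_self]; rfl
      rw [commutatorElement_def, i1, i2, Pm_mul, Pm_mul, Pm_mul]
      show Pm c4 = _
      congr 1
      decide
    rw [this]
    exact commutator_mem_commutator (mem_top _) (mem_top _)
  · rw [(hAB.mul_right hAB).mul_pow, (Commute.refl B).mul_pow]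
    show (R 0) ^ 3 * ((R 1) ^ 3 * (R 1) ^ 3) = 1
    rw [R_cube, R_cube]
    simp
  · rw [hx1]
    have c1 : Commute A (C * (A * A)) := hAC.mul_right ((Commute.refl A).mul_right (Commute.refl A))
    have c2 : Commute B (C * (A * A)) := hBC.mul_right (hAB.symm.mul_right hAB.symm)
    exact c1.mul_left (c2.mul_left c2)
  · rw [hx2]
    have c1 : Commute A (B * (C * C)) := hAB.mul_right (hAC.mul_right hAC)
    have c2 : Commute B (B * (C * C)) := (Commute.refl B).mul_right (hBC.mul_right hBC)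
    exact c1.mul_left (c2.mul_left c2)
  · intro h
    have h1 : s * (A * (B * B)) * s⁻¹ = A * (B * B) := by rw [← h]; group
    rw [hx1] at h1
    have h2 := congrArg (fun a : ReflGen.orth (F := F) (Q4 (F := F)) =>
      ((a : (Fin 4 → F × F) ≃ₗ[F] (Fin 4 → F × F)) (fun _ => (1, 0)) 2).2) h1
    simp only [coe_mul] at h2
    have h3 : ∀ (a : ReflGen.orth (F := F) (Q4 (F := F))) (v : Fin 4 → F × F), a = A ∨ a = B →
        (a : (Fin 4 → F × F) ≃ₗ[F] (Fin 4 → F × F)) v 2 = v 2 := by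
      rintro a v (rfl | rfl)
      · show ((R 0 : ReflGen.orth (F := F) (Q4 (F := F))) : (Fin 4 → F × F) ≃ₗ[F] (Fin 4 → F × F)) v 2 = v 2
        rw [R_apply, if_neg (by decide)]
      · show ((R 1 : ReflGen.orth (F := F) (Q4 (F := F))) : (Fin 4 → F × F) ≃ₗ[F] (Fin 4 → F × F)) v 2 = v 2
        rw [R_apply, if_neg (by decide)]
    rw [h3 A _ (Or.inl rfl), h3 B _ (Or.inr rfl), h3 B _ (Or.inr rfl)] at h2
    have h4 : ∀ v : Fin 4 → F × F, (C : (Fin 4 → F × F) ≃ₗ[F] (Fin 4 → F × F)) v 2 = rot (v 2) := by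
      intro v
      show ((R 2 : ReflGen.orth (F := F) (Q4 (F := F))) : (Fin 4 → F × F) ≃ₗ[F] (Fin 4 → F × F)) v 2 = _
      rw [R_apply, if_pos rfl]
    rw [h4, h3 A _ (Or.inl rfl), h3 A _ (Or.inl rfl)] at h2
    exact one_ne_zero h2

/-- forward map on a pair of hyperbolic planes -/
def fwd (a b c : F) (x y x' y' : F) : Fin 2 → F × F :=
  ![(x + c * (x' - y'), y + c * y'),
    (a * (x - c * x') - b * (y + c * (x' - y')), b * (x - c * x') + (a + b) * (y + c * (x' - y')))]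

/-- backward map -/
def bwd (a b c : F) (p q : F × F) : Fin 4 → F :=
  ![p.1 - c * ((p.1 + ((a + b) * q.1 + b * q.2)) - (p.2 - (b * q.1 - a * q.2))),
    p.2 - c * ((p.1 + ((a + b) * q.1 + b * q.2)) + 2 * (p.2 - (b * q.1 - a * q.2))),
    2 * (p.1 + ((a + b) * q.1 + b * q.2)) + (p.2 - (b * q.1 - a * q.2)),
    (p.1 + ((a + b) * q.1 + b * q.2)) + 2 * (p.2 - (b * q.1 - a * q.2))]

theorem bwd_fwd {a b c : F} (hab : a ^ 2 + a * b + b ^ 2 = -1) (hc : 3 * c = 1) (x y x' y' : F) :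
    bwd a b c (fwd a b c x y x' y' 0) (fwd a b c x y x' y' 1) = ![x, y, x', y'] := by
  have h0 : fwd a b c x y x' y' 0 = (x + c * (x' - y'), y + c * y') := rfl
  have h1 : fwd a b c x y x' y' 1 =
    (a * (x - c * x') - b * (y + c * (x' - y')), b * (x - c * x') + (a + b) * (y + c * (x' - y'))) := rfl
  rw [h0, h1, bwd]
  simp only
  have e1 : (a + b) * (a * (x - c * x') - b * (y + c * (x' - y'))) +
      b * (b * (x - c * x') + (a + b) * (y + c * (x' - y'))) = -(x - c * x') := by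
    linear_combination (x - c * x') * hab
  have e2 : b * (a * (x - c * x') - b * (y + c * (x' - y'))) -
      a * (b * (x - c * x') + (a + b) * (y + c * (x' - y'))) = (y + c * (x' - y')) := by
    linear_combination -(y + c * (x' - y')) * hab
  rw [e1, e2]
  funext i
  fin_cases i
  · show x + c * (x' - y') - c * (x + c * (x' - y') + -(x - c * x') - (y + c * y' - (y + c * (x' - y')))) = x
    linear_combination (-c * (x' - y')) * hc
  · show y + c * y' - c * (x + c * (x' - y') + -(x - c * x') + 2 * (y + c * y' - (y + c * (x' - y')))) = y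
    linear_combination (-c * y') * hc
  · show 2 * (x + c * (x' - y') + -(x - c * x')) + (y + c * y' - (y + c * (x' - y'))) = x'
    linear_combination x' * hc
  · show (x + c * (x' - y') + -(x - c * x')) + 2 * (y + c * y' - (y + c * (x' - y'))) = y'
    linear_combination y' * hc

theorem fwd_bwd {a b c : F} (hab : a ^ 2 + a * b + b ^ 2 = -1) (hc : 3 * c = 1) (p q : F × F) :
    fwd a b c (bwd a b c p q 0) (bwd a b c p q 1) (bwd a b c p q 2) (bwd a b c p q 3) = ![p, q] := by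
  obtain ⟨u, v⟩ := p
  obtain ⟨z, t⟩ := q
  have h0 : bwd a b c (u, v) (z, t) 0 = u - c * ((u + ((a + b) * z + b * t)) - (v - (b * z - a * t))) := rfl
  have h1 : bwd a b c (u, v) (z, t) 1 = v - c * ((u + ((a + b) * z + b * t)) + 2 * (v - (b * z - a * t))) := rfl
  have h2 : bwd a b c (u, v) (z, t) 2 = 2 * (u + ((a + b) * z + b * t)) + (v - (b * z - a * t)) := rfl
  have h3 : bwd a b c (u, v) (z, t) 3 = (u + ((a + b) * z + b * t)) + 2 * (v - (b * z - a * t)) := rfl
  have e1 : bwd a b c (u, v) (z, t) 0 + c * (bwd a b c (u, v) (z, t) 2 - bwd a b c (u, v) (z, t) 3) = u := by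
    rw [h0, h2, h3]; ring
  have e2 : bwd a b c (u, v) (z, t) 1 + c * bwd a b c (u, v) (z, t) 3 = v := by
    rw [h1, h3]; ring
  have e3 : bwd a b c (u, v) (z, t) 0 - c * bwd a b c (u, v) (z, t) 2 = -((a + b) * z + b * t) := by
    rw [h0, h2]
    linear_combination (-(u + ((a + b) * z + b * t))) * hc
  have e4 : bwd a b c (u, v) (z, t) 1 + c * (bwd a b c (u, v) (z, t) 2 - bwd a b c (u, v) (z, t) 3) =
      b * z - a * t := by
    rw [h1, h2, h3]
    linear_combination (-(v - (b * z - a * t))) * hc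
  funext i
  fin_cases i
  · show (_, _) = (u, v)
    rw [e1, e2]
  · show (_, _) = (z, t)
    rw [e3, e4]
    refine Prod.ext ?_ ?_
    · show a * -((a + b) * z + b * t) - b * (b * z - a * t) = z
      linear_combination (-z) * hab
    · show b * -((a + b) * z + b * t) + (a + b) * (b * z - a * t) = t
      linear_combination (-t) * hab

theorem fwd_form {a b c : F} (hab : a ^ 2 + a * b + b ^ 2 = -1) (hc : 3 * c = 1) (x y x' y' : F) :
    ((fwd a b c x y x' y' 0).1 ^ 2 + (fwd a b c x y x' y' 0).1 * (fwd a b c x y x' y' 0).2 +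
      (fwd a b c x y x' y' 0).2 ^ 2) + ((fwd a b c x y x' y' 1).1 ^ 2 + (fwd a b c x y x' y' 1).1 *
      (fwd a b c x y x' y' 1).2 + (fwd a b c x y x' y' 1).2 ^ 2) = x * x' + y * y' := by
  have h0 : fwd a b c x y x' y' 0 = (x + c * (x' - y'), y + c * y') := rfl
  have h1 : fwd a b c x y x' y' 1 =
    (a * (x - c * x') - b * (y + c * (x' - y')), b * (x - c * x') + (a + b) * (y + c * (x' - y'))) := rfl
  rw [h0, h1]
  simp only
  have e1 : (a * (x - c * x') - b * (y + c * (x' - y'))) ^ 2 +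
      (a * (x - c * x') - b * (y + c * (x' - y'))) * (b * (x - c * x') + (a + b) * (y + c * (x' - y'))) +
      (b * (x - c * x') + (a + b) * (y + c * (x' - y'))) ^ 2 =
      -((x - c * x') ^ 2 + (x - c * x') * (y + c * (x' - y')) + (y + c * (x' - y')) ^ 2) := by
    linear_combination ((x - c * x') ^ 2 + (x - c * x') * (y + c * (x' - y')) + (y + c * (x' - y')) ^ 2) * hab
  rw [e1]
  linear_combination (x * x' + y * y') * hc

/-- the isometry -/
def T {a b c : F} (hab : a ^ 2 + a * b + b ^ 2 = -1) (hc : 3 * c = 1) :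
    (Fin 4 ⊕ Fin 4 → F) ≃ₗ[F] (Fin 4 → F × F) where
  toFun v := ![fwd a b c (v (.inl 0)) (v (.inl 1)) (v (.inr 0)) (v (.inr 1)) 0,
    fwd a b c (v (.inl 0)) (v (.inl 1)) (v (.inr 0)) (v (.inr 1)) 1,
    fwd a b c (v (.inl 2)) (v (.inl 3)) (v (.inr 2)) (v (.inr 3)) 0,
    fwd a b c (v (.inl 2)) (v (.inl 3)) (v (.inr 2)) (v (.inr 3)) 1]
  invFun p := Sum.elim ![bwd a b c (p 0) (p 1) 0, bwd a b c (p 0) (p 1) 1, bwd a b c (p 2) (p 3) 0,
      bwd a b c (p 2) (p 3) 1] ![bwd a b c (p 0) (p 1) 2, bwd a b c (p 0) (p 1) 3, bwd a b c (p 2) (p 3) 2,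
      bwd a b c (p 2) (p 3) 3]
  left_inv v := by
    have h1 := bwd_fwd hab hc (v (.inl 0)) (v (.inl 1)) (v (.inr 0)) (v (.inr 1))
    have h2 := bwd_fwd hab hc (v (.inl 2)) (v (.inl 3)) (v (.inr 2)) (v (.inr 3))
    funext i
    rcases i with i | i <;> fin_cases i
    · exact congrFun h1 0
    · exact congrFun h1 1
    · exact congrFun h2 0
    · exact congrFun h2 1
    · exact congrFun h1 2
    · exact congrFun h1 3
    · exact congrFun h2 2
    · exact congrFun h2 3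
  right_inv p := by
    have h1 := fwd_bwd hab hc (p 0) (p 1)
    have h2 := fwd_bwd hab hc (p 2) (p 3)
    funext i
    fin_cases i
    · exact congrFun h1 0
    · exact congrFun h1 1
    · exact congrFun h2 0
    · exact congrFun h2 1
  map_add' v w := by
    funext i
    fin_cases i <;> refine Prod.ext ?_ ?_ <;> simp [fwd] <;> ring
  map_smul' k v := by
    funext i
    fin_cases i <;> refine Prod.ext ?_ ?_ <;> simp [fwd] <;> ring

theorem Q4_T {a b c : F} (hab : a ^ 2 + a * b + b ^ 2 = -1) (hc : 3 * c = 1) (v : Fin 4 ⊕ Fin 4 → F) :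
    Q4 (T hab hc v) = Cfsg.quadFormPlus 4 F v := by
  have h1 := fwd_form hab hc (v (.inl 0)) (v (.inl 1)) (v (.inr 0)) (v (.inr 1))
  have h2 := fwd_form hab hc (v (.inl 2)) (v (.inl 3)) (v (.inr 2)) (v (.inr 3))
  have e0 : T hab hc v 0 = fwd a b c (v (.inl 0)) (v (.inl 1)) (v (.inr 0)) (v (.inr 1)) 0 := rfl
  have e1 : T hab hc v 1 = fwd a b c (v (.inl 0)) (v (.inl 1)) (v (.inr 0)) (v (.inr 1)) 1 := rfl
  have e2 : T hab hc v 2 = fwd a b c (v (.inl 2)) (v (.inl 3)) (v (.inr 2)) (v (.inr 3)) 0 := rfl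
  have e3 : T hab hc v 3 = fwd a b c (v (.inl 2)) (v (.inl 3)) (v (.inr 2)) (v (.inr 3)) 1 := rfl
  rw [Q4, Cfsg.quadFormPlus, Fin.sum_univ_four, Fin.sum_univ_four, e0, e1, e2, e3]
  linear_combination h1 + h2

/-- the embedding -/
theorem exists_emb_four [Finite F] (h3 : (3 : F) ≠ 0) :
    ∃ f : ReflGen.orth (F := F) (Q4 (F := F)) →* Cfsg.isometryGroup F (Cfsg.quadFormPlus 4 F),
      Function.Injective f := by
  obtain ⟨a, b, hab⟩ := Cfsg.Agent.H356.SLTwo.exists_norm h3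
  have hc : (3 : F) * (3 : F)⁻¹ = 1 := mul_inv_cancel₀ h3
  let t := T hab hc
  have ht : ∀ v, Q4 (t v) = Cfsg.quadFormPlus 4 F v := Q4_T hab hc
  let g : ReflGen.orth (F := F) (Q4 (F := F)) →* ReflGen.orth (F := F) (Cfsg.quadFormPlus 4 F) :=
    { toFun := fun u => ⟨t.trans ((u : (Fin 4 → F × F) ≃ₗ[F] (Fin 4 → F × F)).trans t.symm), by
        intro v
        show Cfsg.quadFormPlus 4 F (t.symm ((u : (Fin 4 → F × F) ≃ₗ[F] (Fin 4 → F × F)) (t v))) = _
        rw [← ht, LinearEquiv.apply_symm_apply, u.2, ht]⟩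
      map_one' := by
        apply Subtype.ext
        apply LinearEquiv.ext
        intro v
        exact t.symm_apply_apply v
      map_mul' := by
        intro u w
        apply Subtype.ext
        apply LinearEquiv.ext
        intro v
        show t.symm ((u : (Fin 4 → F × F) ≃ₗ[F] (Fin 4 → F × F)) ((w : (Fin 4 → F × F) ≃ₗ[F] (Fin 4 → F × F)) (t v))) =
          t.symm ((u : (Fin 4 → F × F) ≃ₗ[F] (Fin 4 → F × F)) (t (t.symm
            ((w : (Fin 4 → F × F) ≃ₗ[F] (Fin 4 → F × F)) (t v)))))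
        rw [LinearEquiv.apply_symm_apply] }
  have hg : Function.Injective g := by
    intro u w h
    apply Subtype.ext
    apply LinearEquiv.ext
    intro v
    have h1 := congrArg (fun x : ReflGen.orth (F := F) (Cfsg.quadFormPlus 4 F) =>
      (x : (Fin 4 ⊕ Fin 4 → F) ≃ₗ[F] (Fin 4 ⊕ Fin 4 → F)) (t.symm v)) h
    have h2 : t.symm ((u : (Fin 4 → F × F) ≃ₗ[F] (Fin 4 → F × F)) (t (t.symm v))) =
      t.symm ((w : (Fin 4 → F × F) ≃ₗ[F] (Fin 4 → F × F)) (t (t.symm v))) := h1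
    rw [LinearEquiv.apply_symm_apply] at h2
    exact t.symm.injective h2
  exact ⟨(SixModel.isometryEquiv (Cfsg.quadFormPlus 4 F)).symm.toMonoidHom.comp g,
    (SixModel.isometryEquiv (Cfsg.quadFormPlus 4 F)).symm.injective.comp hg⟩

end four

/-- Witt index `≥ 4` -/
theorem four [Fintype F] {Q : QuadraticForm F (ι → F)} (hQ : (polarBilin Q).Nondegenerate)
    (hn : 3 ≤ Fintype.card ι) (hs : ∃ u : ι → F, u ≠ 0 ∧ Q u = 0) {w : ℕ} (hw : 4 ≤ w)
    (hemb : ∃ f : Cfsg.isometryGroup F (Cfsg.quadFormPlus w F) →* Cfsg.isometryGroup F (⇑Q),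
      Function.Injective f) (h3 : Fintype.card F % 3 ≠ 0) (h : Bad (Cfsg.POmega F (⇑Q))) : False := by
  obtain ⟨f, hf⟩ := hemb
  obtain ⟨f₂, hf₂⟩ := exists_emb_plus (F := F) hw
  obtain ⟨f₁, hf₁⟩ := exists_emb_four (F := F) (three_ne_zero_of h3)
  obtain ⟨x, s, hxc, hsc, hx, hs3, h1, h2, h4⟩ := facts (F := F)
  exact kill_comm hQ hn hs h ((f.comp f₂).comp f₁) ((hf.comp hf₂).comp hf₁) hxc hsc hx hs3 h1 h2 h4

/-! ### three copies of `x² + xy + y²` -/

namespace Three

/-- the form `Σ xᵢ² + xᵢyᵢ + yᵢ²` -/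
def Q3 (v : Fin 3 → F × F) : F := ∑ i, ((v i).1 ^ 2 + (v i).1 * (v i).2 + (v i).2 ^ 2)

/-- rotation on one block -/
def R (k : Fin 3) : ReflGen.orth (F := F) (Q3 (F := F)) :=
  ⟨LinearEquiv.piCongrRight fun i => if i = k then rot else LinearEquiv.refl F _, by
    intro v
    unfold Q3
    refine Finset.sum_congr rfl fun i _ => ?_
    rw [LinearEquiv.piCongrRight_apply]
    split_ifs
    · show (-(v i).1 - (v i).2) ^ 2 + (-(v i).1 - (v i).2) * (v i).1 + (v i).1 ^ 2 = _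
      ring
    · rfl⟩

/-- permutation of the blocks -/
def Pm (σ : Equiv.Perm (Fin 3)) : ReflGen.orth (F := F) (Q3 (F := F)) :=
  ⟨LinearEquiv.funCongrLeft F (F × F) σ, by
    intro v
    unfold Q3
    exact Equiv.sum_comp σ (fun i => (v i).1 ^ 2 + (v i).1 * (v i).2 + (v i).2 ^ 2)⟩

theorem orth_ext {a b : ReflGen.orth (F := F) (Q3 (F := F))}
    (h : ∀ v : Fin 3 → F × F, ∀ i, (a : (Fin 3 → F × F) ≃ₗ[F] (Fin 3 → F × F)) v i =
      (b : (Fin 3 → F × F) ≃ₗ[F] (Fin 3 → F × F)) v i) : a = b :=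
  Subtype.ext (LinearEquiv.ext fun v => funext (h v))

theorem R_apply (k : Fin 3) (v : Fin 3 → F × F) (i : Fin 3) :
    ((R k : ReflGen.orth (F := F) (Q3 (F := F))) : (Fin 3 → F × F) ≃ₗ[F] (Fin 3 → F × F)) v i =
      if i = k then rot (v i) else v i := by
  show (LinearEquiv.piCongrRight fun i => if i = k then rot else LinearEquiv.refl F (F × F)) v i = _
  rw [LinearEquiv.piCongrRight_apply]
  split_ifs <;> rfl

theorem Pm_apply (σ : Equiv.Perm (Fin 3)) (v : Fin 3 → F × F) (i : Fin 3) :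
    ((Pm σ : ReflGen.orth (F := F) (Q3 (F := F))) : (Fin 3 → F × F) ≃ₗ[F] (Fin 3 → F × F)) v i = v (σ i) := rfl

theorem coe_mul (a b : ReflGen.orth (F := F) (Q3 (F := F))) (v : Fin 3 → F × F) :
    ((a * b : ReflGen.orth (F := F) (Q3 (F := F))) : (Fin 3 → F × F) ≃ₗ[F] (Fin 3 → F × F)) v =
      (a : (Fin 3 → F × F) ≃ₗ[F] (Fin 3 → F × F)) ((b : (Fin 3 → F × F) ≃ₗ[F] (Fin 3 → F × F)) v) := rfl

theorem Pm_mul (σ τ : Equiv.Perm (Fin 3)) : (Pm σ * Pm τ : ReflGen.orth (F := F) (Q3 (F := F))) = Pm (τ * σ) := rfl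

theorem Pm_R (σ : Equiv.Perm (Fin 3)) {k l : Fin 3} (h : σ l = k) :
    (Pm σ * R k : ReflGen.orth (F := F) (Q3 (F := F))) = R l * Pm σ := by
  apply orth_ext
  intro v i
  rw [coe_mul, coe_mul, Pm_apply, R_apply, R_apply, Pm_apply]
  by_cases hi : i = l
  · subst hi; rw [if_pos h, if_pos rfl]
  · rw [if_neg hi, if_neg]
    rw [← h]
    exact fun e => hi (σ.injective e)

theorem R_cube (k : Fin 3) : (R k : ReflGen.orth (F := F) (Q3 (F := F))) ^ 3 = 1 := by
  apply orth_ext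
  intro v i
  rw [pow_succ, pow_two, coe_mul, coe_mul, R_apply, R_apply, R_apply]
  show _ = v i
  split_ifs
  · exact rot_rot_rot _
  · rfl

theorem R_comm (k l : Fin 3) : (R k * R l : ReflGen.orth (F := F) (Q3 (F := F))) = R l * R k := by
  apply orth_ext
  intro v i
  rw [coe_mul, coe_mul, R_apply, R_apply, R_apply, R_apply]
  split_ifs <;> rfl

/-- the 3-cycle -/
def c3 : Equiv.Perm (Fin 3) := Equiv.swap 0 1 * Equiv.swap 1 2

theorem facts : ∃ x s : ReflGen.orth (F := F) (Q3 (F := F)), x ∈ commutator (ReflGen.orth (F := F) (Q3 (F := F))) ∧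
    s ∈ commutator (ReflGen.orth (F := F) (Q3 (F := F))) ∧ x ^ 3 = 1 ∧ s ^ 3 = 1 ∧
      x * (s * x * s⁻¹) = (s * x * s⁻¹) * x ∧ x * (s⁻¹ * x * s) = (s⁻¹ * x * s) * x ∧ x * s ≠ s * x := by
  let A : ReflGen.orth (F := F) (Q3 (F := F)) := R 0
  let B : ReflGen.orth (F := F) (Q3 (F := F)) := R 1
  let C : ReflGen.orth (F := F) (Q3 (F := F)) := R 2
  let s : ReflGen.orth (F := F) (Q3 (F := F)) := Pm c3
  have sA : s * A = C * s := Pm_R c3 (by decide)
  have sB : s * B = A * s := Pm_R c3 (by decide)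
  have sC : s * C = B * s := Pm_R c3 (by decide)
  have tA : s * A * s⁻¹ = C := by rw [sA]; group
  have tB : s * B * s⁻¹ = A := by rw [sB]; group
  have uA : s⁻¹ * A * s = B := by rw [mul_assoc, ← sB]; group
  have uB : s⁻¹ * B * s = C := by rw [mul_assoc, ← sC]; group
  have hBB : B * B = B⁻¹ := by
    rw [eq_inv_iff_mul_eq_one, ← pow_two, ← pow_succ]
    exact R_cube 1
  have hss : s ^ 3 = 1 := by
    have : c3 * (c3 * c3) = 1 := by decide
    calc s ^ 3 = s * s * s := by rw [pow_succ, pow_two]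
      _ = Pm (c3 * (c3 * c3)) := rfl
      _ = 1 := by rw [this]; rfl
  have hAB : Commute A B := R_comm 0 1
  have hAC : Commute A C := R_comm 0 2
  have hBC : Commute B C := R_comm 1 2
  have hx1 : s * (A * (B * B)) * s⁻¹ = C * (A * A) := by
    calc s * (A * (B * B)) * s⁻¹ = (s * A * s⁻¹) * ((s * B * s⁻¹) * (s * B * s⁻¹)) := by group
      _ = _ := by rw [tA, tB]
  have hx2 : s⁻¹ * (A * (B * B)) * s = B * (C * C) := by
    calc s⁻¹ * (A * (B * B)) * s = (s⁻¹ * A * s) * ((s⁻¹ * B * s) * (s⁻¹ * B * s)) := by group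
      _ = _ := by rw [uA, uB]
  refine ⟨A * (B * B), s, ?_, ?_, ?_, hss, ?_, ?_, ?_⟩
  · have : A * (B * B) = ⁅A, s⁻¹⁆ := by
      rw [hBB, commutatorElement_def, inv_inv, mul_assoc, mul_assoc]
      congr 1
      rw [← uA]; group
    rw [this]
    exact commutator_mem_commutator (mem_top _) (mem_top _)
  · have : s = ⁅(Pm (Equiv.swap 0 1) : ReflGen.orth (F := F) (Q3 (F := F))), Pm (Equiv.swap 1 2)⁆ := by
      have i1 : (Pm (Equiv.swap 0 1) : ReflGen.orth (F := F) (Q3 (F := F)))⁻¹ = Pm (Equiv.swap 0 1) := by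
        rw [inv_eq_iff_mul_eq_one, Pm_mul, Equiv.swap_mul_self]; rfl
      have i2 : (Pm (Equiv.swap 1 2) : ReflGen.orth (F := F) (Q3 (F := F)))⁻¹ = Pm (Equiv.swap 1 2) := by
        rw [inv_eq_iff_mul_eq_one, Pm_mul, Equiv.swap_mul_self]; rfl
      rw [commutatorElement_def, i1, i2, Pm_mul, Pm_mul, Pm_mul]
      show Pm c3 = _
      congr 1
      decide
    rw [this]
    exact commutator_mem_commutator (mem_top _) (mem_top _)
  · rw [(hAB.mul_right hAB).mul_pow, (Commute.refl B).mul_pow]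
    show (R 0) ^ 3 * ((R 1) ^ 3 * (R 1) ^ 3) = 1
    rw [R_cube, R_cube]
    simp
  · rw [hx1]
    have c1 : Commute A (C * (A * A)) := hAC.mul_right ((Commute.refl A).mul_right (Commute.refl A))
    have c2 : Commute B (C * (A * A)) := hBC.mul_right (hAB.symm.mul_right hAB.symm)
    exact c1.mul_left (c2.mul_left c2)
  · rw [hx2]
    have c1 : Commute A (B * (C * C)) := hAB.mul_right (hAC.mul_right hAC)
    have c2 : Commute B (B * (C * C)) := (Commute.refl B).mul_right (hBC.mul_right hBC)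
    exact c1.mul_left (c2.mul_left c2)
  · intro h
    have h1 : s * (A * (B * B)) * s⁻¹ = A * (B * B) := by rw [← h]; group
    rw [hx1] at h1
    have h2 := congrArg (fun a : ReflGen.orth (F := F) (Q3 (F := F)) =>
      ((a : (Fin 3 → F × F) ≃ₗ[F] (Fin 3 → F × F)) (fun _ => (1, 0)) 2).2) h1
    simp only [coe_mul] at h2
    have h3 : ∀ (a : ReflGen.orth (F := F) (Q3 (F := F))) (v : Fin 3 → F × F), a = A ∨ a = B →
        (a : (Fin 3 → F × F) ≃ₗ[F] (Fin 3 → F × F)) v 2 = v 2 := by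
      rintro a v (rfl | rfl)
      · show ((R 0 : ReflGen.orth (F := F) (Q3 (F := F))) : (Fin 3 → F × F) ≃ₗ[F] (Fin 3 → F × F)) v 2 = v 2
        rw [R_apply, if_neg (by decide)]
      · show ((R 1 : ReflGen.orth (F := F) (Q3 (F := F))) : (Fin 3 → F × F) ≃ₗ[F] (Fin 3 → F × F)) v 2 = v 2
        rw [R_apply, if_neg (by decide)]
    rw [h3 A _ (Or.inl rfl), h3 B _ (Or.inr rfl), h3 B _ (Or.inr rfl)] at h2
    have h4 : ∀ v : Fin 3 → F × F, (C : (Fin 3 → F × F) ≃ₗ[F] (Fin 3 → F × F)) v 2 = rot (v 2) := by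
      intro v
      show ((R 2 : ReflGen.orth (F := F) (Q3 (F := F))) : (Fin 3 → F × F) ≃ₗ[F] (Fin 3 → F × F)) v 2 = _
      rw [R_apply, if_pos rfl]
    rw [h4, h3 A _ (Or.inl rfl), h3 A _ (Or.inl rfl)] at h2
    exact one_ne_zero h2

section ext

variable {V W : Type*} [AddCommGroup V] [Module F V] [AddCommGroup W] [Module F W]

/-- extension by the identity -/
def extLin (φ : W →ₗ[F] V) (π : V →ₗ[F] W) (g : W ≃ₗ[F] W) : V →ₗ[F] V :=
  LinearMap.id + φ.comp ((g.toLinearMap - LinearMap.id).comp π)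

theorem extLin_apply (φ : W →ₗ[F] V) (π : V →ₗ[F] W) (g : W ≃ₗ[F] W) (v : V) :
    extLin φ π g v = v + φ (g (π v) - π v) := rfl

theorem pi_extLin {φ : W →ₗ[F] V} {π : V →ₗ[F] W} (hπ : ∀ w, π (φ w) = w) (g : W ≃ₗ[F] W) (v : V) :
    π (extLin φ π g v) = g (π v) := by
  rw [extLin_apply, map_add, hπ]; abel

theorem extLin_mul {φ : W →ₗ[F] V} {π : V →ₗ[F] W} (hπ : ∀ w, π (φ w) = w) (g h : W ≃ₗ[F] W) (v : V) :
    extLin φ π g (extLin φ π h v) = extLin φ π (g * h) v := by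
  rw [extLin_apply φ π g, pi_extLin hπ, extLin_apply φ π h, extLin_apply φ π (g * h), add_assoc, ← map_add]
  congr 2
  show h (π v) - π v + (g (h (π v)) - h (π v)) = g (h (π v)) - π v
  abel

theorem extLin_one (φ : W →ₗ[F] V) (π : V →ₗ[F] W) (v : V) : extLin φ π 1 v = v := by
  rw [extLin_apply]
  show v + φ (π v - π v) = v
  rw [sub_self, map_zero, add_zero]

/-- the same as an equivalence -/
def extEquiv {φ : W →ₗ[F] V} {π : V →ₗ[F] W} (hπ : ∀ w, π (φ w) = w) (g : W ≃ₗ[F] W) : V ≃ₗ[F] V :=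
  LinearEquiv.ofLinear (extLin φ π g) (extLin φ π g⁻¹)
    (LinearMap.ext fun v => by
      show extLin φ π g (extLin φ π g⁻¹ v) = v
      rw [extLin_mul hπ, mul_inv_cancel, extLin_one])
    (LinearMap.ext fun v => by
      show extLin φ π g⁻¹ (extLin φ π g v) = v
      rw [extLin_mul hπ, inv_mul_cancel, extLin_one])

/-- the embedding of the isometry group of an orthogonal summand -/
theorem exists_emb_of_map (Q : QuadraticForm F V) (q : W → F) (φ : W →ₗ[F] V) (π : V →ₗ[F] W)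
    (hq : ∀ w, Q (φ w) = q w) (hπ : ∀ w, π (φ w) = w)
    (hadj : ∀ v w, polar Q v (φ w) = polar Q (φ (π v)) (φ w)) :
    ∃ f : ReflGen.orth (F := F) q →* ReflGen.orth (F := F) (⇑Q), Function.Injective f := by
  refine ⟨{ toFun := fun u => ⟨extEquiv hπ (u : W ≃ₗ[F] W), ?_⟩
            map_one' := ?_
            map_mul' := ?_ }, ?_⟩
  · intro v
    show Q (v + φ ((u : W ≃ₗ[F] W) (π v) - π v)) = Q v
    have h1 := hadj v ((u : W ≃ₗ[F] W) (π v) - π v)
    unfold polar at h1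
    rw [← map_add φ (π v), add_sub_cancel, hq ((u : W ≃ₗ[F] W) (π v)), hq (π v), u.2 (π v)] at h1
    linear_combination h1
  · apply Subtype.ext
    apply LinearEquiv.ext
    intro v
    exact extLin_one φ π v
  · intro g h
    apply Subtype.ext
    apply LinearEquiv.ext
    intro v
    exact (extLin_mul hπ (g : W ≃ₗ[F] W) (h : W ≃ₗ[F] W) v).symm
  · intro g h hgh
    apply Subtype.ext
    apply LinearEquiv.ext
    intro w
    have h1 : extLin φ π (g : W ≃ₗ[F] W) (φ w) = extLin φ π (h : W ≃ₗ[F] W) (φ w) :=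
      congrArg (fun x : ReflGen.orth (F := F) (⇑Q) => (x : V ≃ₗ[F] V) (φ w)) hgh
    have h2 := congrArg π h1
    rwa [pi_extLin hπ, pi_extLin hπ, hπ] at h2

/-- first basis vector of the block `i` -/
def e1 (i : Fin 3) : Fin 3 → F × F := Pi.single i (1, 0)

/-- second basis vector of the block `i` -/
def e2 (i : Fin 3) : Fin 3 → F × F := Pi.single i (0, 1)

theorem polar_e1 (w : Fin 3 → F × F) (i : Fin 3) :
    Q3 (w + e1 i) - Q3 w - Q3 (e1 (F := F) i) = 2 * (w i).1 + (w i).2 := by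
  unfold Q3 e1
  rw [Fin.sum_univ_three, Fin.sum_univ_three, Fin.sum_univ_three]
  fin_cases i <;> simp [Pi.single_apply] <;> ring

theorem polar_e2 (w : Fin 3 → F × F) (i : Fin 3) :
    Q3 (w + e2 i) - Q3 w - Q3 (e2 (F := F) i) = (w i).1 + 2 * (w i).2 := by
  unfold Q3 e2
  rw [Fin.sum_univ_three, Fin.sum_univ_three, Fin.sum_univ_three]
  fin_cases i <;> simp [Pi.single_apply] <;> ring

theorem eq_sum (w : Fin 3 → F × F) : w = ∑ i, ((w i).1 • e1 i + (w i).2 • e2 (F := F) i) := by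
  funext j
  rw [Fin.sum_univ_three]
  unfold e1 e2
  fin_cases j <;> simp [Pi.single_apply]

theorem exists_emb_three (h3 : (3 : F) ≠ 0) (Q : QuadraticForm F V)
    (φ : (Fin 3 → F × F) →ₗ[F] V) (hφ : ∀ w, Q (φ w) = Q3 w) :
    ∃ f : ReflGen.orth (F := F) (Q3 (F := F)) →* ReflGen.orth (F := F) (⇑Q), Function.Injective f := by
  have hc : (3 : F) * (3 : F)⁻¹ = 1 := mul_inv_cancel₀ h3
  set c : F := (3 : F)⁻¹ with hcdef
  let B := polarBilin Q
  have hB : ∀ v w, B v w = polar Q v w := fun v w => rfl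
  let π : V →ₗ[F] (Fin 3 → F × F) := LinearMap.pi fun i =>
    LinearMap.prod (c • ((2 : F) • B.flip (φ (e1 i)) - B.flip (φ (e2 i))))
      (c • ((2 : F) • B.flip (φ (e2 i)) - B.flip (φ (e1 i))))
  have hπ1 : ∀ v i, (π v i).1 = c * (2 * B v (φ (e1 i)) - B v (φ (e2 i))) := fun v i => rfl
  have hπ2 : ∀ v i, (π v i).2 = c * (2 * B v (φ (e2 i)) - B v (φ (e1 i))) := fun v i => rfl
  have hb1 : ∀ w i, B (φ w) (φ (e1 i)) = 2 * (w i).1 + (w i).2 := by
    intro w i
    rw [hB, polar, ← map_add, hφ, hφ, hφ, polar_e1]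
  have hb2 : ∀ w i, B (φ w) (φ (e2 i)) = (w i).1 + 2 * (w i).2 := by
    intro w i
    rw [hB, polar, ← map_add, hφ, hφ, hφ, polar_e2]
  refine exists_emb_of_map Q Q3 φ π hφ ?_ ?_
  · intro w
    funext i
    refine Prod.ext ?_ ?_
    · rw [hπ1, hb1, hb2]
      linear_combination (w i).1 * hc
    · rw [hπ2, hb1, hb2]
      linear_combination (w i).2 * hc
  · intro v w
    rw [← hB, ← hB]
    have key : ∀ i, B v (φ (e1 i)) = B (φ (π v)) (φ (e1 i)) ∧ B v (φ (e2 i)) = B (φ (π v)) (φ (e2 i)) := by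
      intro i
      constructor
      · rw [hb1, hπ1, hπ2]
        linear_combination (-B v (φ (e1 i))) * hc
      · rw [hb2, hπ1, hπ2]
        linear_combination (-B v (φ (e2 i))) * hc
    rw [eq_sum w]
    simp only [map_sum, map_add, map_smul, LinearMap.add_apply]
    refine Finset.sum_congr rfl fun i _ => ?_
    rw [(key i).1, (key i).2]

end ext

theorem bwd_form {a b c : F} (hab : a ^ 2 + a * b + b ^ 2 = -1) (hc : 3 * c = 1) (p q : F × F) :
    bwd a b c p q 0 * bwd a b c p q 2 + bwd a b c p q 1 * bwd a b c p q 3 =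
      (p.1 ^ 2 + p.1 * p.2 + p.2 ^ 2) + (q.1 ^ 2 + q.1 * q.2 + q.2 ^ 2) := by
  have h1 := fwd_form hab hc (bwd a b c p q 0) (bwd a b c p q 1) (bwd a b c p q 2) (bwd a b c p q 3)
  rw [fwd_bwd hab hc] at h1
  exact h1.symm

/-- three copies in the form `PΩ₇` -/
def phiOdd (a b c d : F) : (Fin 3 → F × F) →ₗ[F] (Unit ⊕ (Fin 3 ⊕ Fin 3) → F) where
  toFun p := Sum.elim (fun _ => (p 2).1 + d * (p 2).2)
    (Sum.elim ![bwd a b c (p 0) (p 1) 0, bwd a b c (p 0) (p 1) 1, 3 * d ^ 2 * (p 2).2]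
      ![bwd a b c (p 0) (p 1) 2, bwd a b c (p 0) (p 1) 3, (p 2).2])
  map_add' v w := by
    funext i
    rcases i with i | i | i
    · simp; ring
    · fin_cases i <;> simp [bwd] <;> ring
    · fin_cases i <;> simp [bwd] <;> ring
  map_smul' k v := by
    funext i
    rcases i with i | i | i
    · simp; ring
    · fin_cases i <;> simp [bwd] <;> ring
    · fin_cases i <;> simp [bwd] <;> ring

theorem phiOdd_form {a b c d : F} (hab : a ^ 2 + a * b + b ^ 2 = -1) (hc : 3 * c = 1) (hd : 2 * d = 1)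
    (p : Fin 3 → F × F) : Cfsg.quadFormOdd 3 F (phiOdd a b c d p) = Q3 p := by
  have h1 := bwd_form hab hc (p 0) (p 1)
  unfold Cfsg.quadFormOdd Q3
  rw [Fin.sum_univ_three, Fin.sum_univ_three]
  show ((p 2).1 + d * (p 2).2) ^ 2 + (bwd a b c (p 0) (p 1) 0 * bwd a b c (p 0) (p 1) 2 +
    bwd a b c (p 0) (p 1) 1 * bwd a b c (p 0) (p 1) 3 + 3 * d ^ 2 * (p 2).2 * (p 2).2) = _
  linear_combination h1 + ((p 2).1 * (p 2).2 + (2 * d + 1) * (p 2).2 ^ 2) * hd

/-- three copies in the form `PΩ₈⁻` -/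
def phiMinus (a b c m s t : F) : (Fin 3 → F × F) →ₗ[F] ((Fin 3 ⊕ Fin 3) ⊕ Fin 2 → F) where
  toFun p := Sum.elim (Sum.elim ![bwd a b c (p 0) (p 1) 0, bwd a b c (p 0) (p 1) 1, (1 - m) * (p 2).2]
      ![bwd a b c (p 0) (p 1) 2, bwd a b c (p 0) (p 1) 3, (p 2).2]) ![(p 2).1 + s * (p 2).2, t * (p 2).2]
  map_add' v w := by
    funext i
    rcases i with (i | i) | i
    · fin_cases i <;> simp [bwd] <;> ring
    · fin_cases i <;> simp [bwd] <;> ring
    · fin_cases i <;> simp <;> ring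
  map_smul' k v := by
    funext i
    rcases i with (i | i) | i
    · fin_cases i <;> simp [bwd] <;> ring
    · fin_cases i <;> simp [bwd] <;> ring
    · fin_cases i <;> simp <;> ring

theorem phiMinus_form {a b c m s t α β : F} (hab : a ^ 2 + a * b + b ^ 2 = -1) (hc : 3 * c = 1)
    (hm : m = s ^ 2 + α * s * t + β * t ^ 2) (hst : 2 * s + α * t = 1)
    (p : Fin 3 → F × F) : Cfsg.quadFormMinus 3 F α β (phiMinus a b c m s t p) = Q3 p := by
  have h1 := bwd_form hab hc (p 0) (p 1)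
  unfold Cfsg.quadFormMinus Q3
  rw [Fin.sum_univ_three, Fin.sum_univ_three]
  show (bwd a b c (p 0) (p 1) 0 * bwd a b c (p 0) (p 1) 2 + bwd a b c (p 0) (p 1) 1 * bwd a b c (p 0) (p 1) 3 +
    (1 - m) * (p 2).2 * (p 2).2) + (((p 2).1 + s * (p 2).2) ^ 2 + α * ((p 2).1 + s * (p 2).2) * (t * (p 2).2) +
      β * (t * (p 2).2) ^ 2) = _
  rw [hm]
  linear_combination h1 + ((p 2).1 * (p 2).2) * hst

/-- three orthogonal copies of `x² + xy + y²` -/
theorem kill [Fintype F] {Q : QuadraticForm F (ι → F)} (hQ : (polarBilin Q).Nondegenerate)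
    (hn : 3 ≤ Fintype.card ι) (hs : ∃ u : ι → F, u ≠ 0 ∧ Q u = 0) (h3 : (3 : F) ≠ 0)
    (φ : (Fin 3 → F × F) →ₗ[F] (ι → F)) (hφ : ∀ w, Q (φ w) = Q3 w) (h : Bad (Cfsg.POmega F (⇑Q))) : False := by
  obtain ⟨f, hf⟩ := exists_emb_three h3 Q φ hφ
  obtain ⟨x, s, hxc, hsc, hx, hs3, h1, h2, h4⟩ := facts (F := F)
  exact kill_comm hQ hn hs h ((SixModel.isometryEquiv (⇑Q)).symm.toMonoidHom.comp f)
    ((SixModel.isometryEquiv (⇑Q)).symm.injective.comp hf) hxc hsc hx hs3 h1 h2 h4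

/-- the anisotropic form is not degenerate -/
theorem exists_st [Finite F] {α β : F}
    (hab : ∀ z₁ z₂ : F, z₁ ^ 2 + α * z₁ * z₂ + β * z₂ ^ 2 = 0 → z₁ = 0 ∧ z₂ = 0) : ∃ s t : F, 2 * s + α * t = 1 := by
  by_cases h2 : (2 : F) = 0
  · have hα : α ≠ 0 := by
      rintro rfl
      have hr : ringChar F = 2 := by
        have h4 : ringChar F ∣ 2 := ringChar.dvd (by exact_mod_cast h2)
        rcases (Nat.dvd_prime Nat.prime_two).1 h4 with h5 | h5
        · exfalso
          have := CharP.char_ne_one F (ringChar F)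
          exact this h5
        · exact h5
      obtain ⟨r, hr2⟩ := FiniteField.isSquare_of_char_two hr (-β)
      have h6 := (hab r 1 (by rw [pow_two, ← hr2]; ring)).2
      exact one_ne_zero h6
    exact ⟨0, α⁻¹, by rw [mul_zero, zero_add, mul_inv_cancel₀ hα]⟩
  · exact ⟨(2 : F)⁻¹, 0, by rw [mul_zero, add_zero, mul_inv_cancel₀ h2]⟩

end Three

theorem two_ne_zero_of_odd [Fintype F] (hodd : Odd (Fintype.card F)) : (2 : F) ≠ 0 := by
  intro h0
  obtain ⟨p, hp⟩ := CharP.exists F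
  have hp2 : p ∣ 2 := (CharP.cast_eq_zero_iff F p 2).1 (by exact_mod_cast h0)
  have hpp : p.Prime := (CharP.char_is_prime_or_zero F p).resolve_right (CharP.char_ne_zero_of_finite F p)
  have hp2' : p = 2 := (Nat.prime_dvd_prime_iff_eq hpp Nat.prime_two).1 hp2
  subst hp2'
  have : Fact (Nat.Prime 2) := ⟨Nat.prime_two⟩
  obtain ⟨n, -, hn⟩ := FiniteField.card F 2
  rw [hn] at hodd
  exact Nat.not_even_iff_odd.2 hodd (Nat.even_pow.2 ⟨even_two, n.ne_zero⟩)

/-- **The row `PΩ_{2m+1}(q)`.** -/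
theorem odd_row [Fintype F] {m : ℕ} (hm : 3 ≤ m) (hodd : Odd (Fintype.card F)) (h3 : Fintype.card F % 3 ≠ 0)
    (h : Bad (Cfsg.POmega F (Cfsg.quadFormOdd m F))) : False := by
  have h2 := two_ne_zero_of_odd hodd
  have hfin : Finite (Cfsg.POmega F (Cfsg.quadFormOdd m F)) := Quotient.finite _
  have hemb : ∃ f : Cfsg.isometryGroup F (Cfsg.quadFormPlus m F) →*
      Cfsg.isometryGroup F (⇑(OmegaReindex.quadOdd m F)), Function.Injective f := by
    rw [OmegaReindex.coe_quadOdd]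
    exact exists_emb_odd m
  have hd := h.dvd
  have h' : Bad (Cfsg.POmega F (⇑(OmegaReindex.quadOdd m F))) := by
    rw [OmegaReindex.coe_quadOdd]; exact h
  have h9 := nine (OmegaReindex.quadOdd_nondegenerate h2) (by simp; omega)
    (OmegaReindex.quadOdd_isotropic (by omega)) hm hemb h3 h'
  rcases Nat.lt_or_ge m 4 with hlt | hge
  · obtain rfl : m = 3 := by omega
    obtain ⟨a, b, hab⟩ := Cfsg.Agent.H356.SLTwo.exists_norm (three_ne_zero_of h3)
    have hc : (3 : F) * (3 : F)⁻¹ = 1 := mul_inv_cancel₀ (three_ne_zero_of h3)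
    have hdd : (2 : F) * (2 : F)⁻¹ = 1 := mul_inv_cancel₀ h2
    refine Three.kill (OmegaReindex.quadOdd_nondegenerate h2) (by simp)
      (OmegaReindex.quadOdd_isotropic (by omega)) (three_ne_zero_of h3) (Three.phiOdd a b (3 : F)⁻¹ (2 : F)⁻¹)
      (fun w => ?_) h'
    rw [OmegaReindex.coe_quadOdd]
    exact Three.phiOdd_form hab hc hdd w
  · exact four (OmegaReindex.quadOdd_nondegenerate h2) (by simp; omega)
      (OmegaReindex.quadOdd_isotropic (by omega)) hge hemb h3 h'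

/-- **The row `PΩ⁺_{2m}(q)`.** -/
theorem plus_row [Fintype F] {m : ℕ} (hm : 4 ≤ m) (h3 : Fintype.card F % 3 ≠ 0)
    (h : Bad (Cfsg.POmega F (Cfsg.quadFormPlus m F))) : False := by
  have hemb : ∃ f : Cfsg.isometryGroup F (Cfsg.quadFormPlus m F) →*
      Cfsg.isometryGroup F (⇑(OmegaReindex.quadPlus m F)), Function.Injective f := by
    rw [OmegaReindex.coe_quadPlus]
    exact ⟨MonoidHom.id _, fun _ _ h => h⟩
  have h' : Bad (Cfsg.POmega F (⇑(OmegaReindex.quadPlus m F))) := by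
    rw [OmegaReindex.coe_quadPlus]; exact h
  exact four OmegaReindex.quadPlus_nondegenerate (by simp; omega)
      (OmegaReindex.quadPlus_isotropic (by omega)) hm hemb h3 h'

/-- **The row `PΩ⁻_{2m}(q)`.** -/
theorem minus_row [Fintype F] {m : ℕ} (hm : 4 ≤ m) (a b : F)
    (hab : ∀ z₁ z₂ : F, z₁ ^ 2 + a * z₁ * z₂ + b * z₂ ^ 2 = 0 → z₁ = 0 ∧ z₂ = 0) (h3 : Fintype.card F % 3 ≠ 0)
    (h : Bad (Cfsg.POmega F (Cfsg.quadFormMinus (m - 1) F a b))) : False := by
  have hfin : Finite (Cfsg.POmega F (Cfsg.quadFormMinus (m - 1) F a b)) := Quotient.finite _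
  have hemb : ∃ f : Cfsg.isometryGroup F (Cfsg.quadFormPlus (m - 1) F) →*
      Cfsg.isometryGroup F (⇑(OmegaReindex.quadMinus (m - 1) F a b)), Function.Injective f := by
    rw [OmegaReindex.coe_quadMinus]
    exact exists_emb_minus (m - 1) a b
  have hd := h.dvd
  have h' : Bad (Cfsg.POmega F (⇑(OmegaReindex.quadMinus (m - 1) F a b))) := by
    rw [OmegaReindex.coe_quadMinus]; exact h
  have h9 := nine (OmegaReindex.quadMinus_nondegenerate hab) (by simp; omega)
    (OmegaReindex.quadMinus_isotropic (by omega) a b) (by omega) hemb h3 h'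
  rcases Nat.lt_or_ge m 5 with hlt | hge
  · obtain rfl : m = 4 := by omega
    obtain ⟨s, t, hst⟩ := Three.exists_st hab
    obtain ⟨x, y, hxy⟩ := Cfsg.Agent.H356.SLTwo.exists_norm (three_ne_zero_of h3)
    have hc : (3 : F) * (3 : F)⁻¹ = 1 := mul_inv_cancel₀ (three_ne_zero_of h3)
    refine Three.kill (OmegaReindex.quadMinus_nondegenerate hab) (by simp)
      (OmegaReindex.quadMinus_isotropic (by omega) a b) (three_ne_zero_of h3)
      (Three.phiMinus x y (3 : F)⁻¹ (s ^ 2 + a * s * t + b * t ^ 2) s t) (fun w => ?_) h'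
    rw [OmegaReindex.coe_quadMinus]
    exact Three.phiMinus_form hxy hc rfl hst w
  · exact four (OmegaReindex.quadMinus_nondegenerate hab) (by simp; omega)
      (OmegaReindex.quadMinus_isotropic (by omega) a b) (w := m - 1) (by omega) hemb h3 h'

end Cfsg.Agent.H271.LB3.Orth
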