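import Cfsg.Agent.H271.LB3.PSL
import Cfsg.Agent.H356.KillPSp

/-!
# `PSp_{2m}(q)`, `3 ∤ q`
-/

set_option autoImplicit false
set_option linter.unusedSectionVars false
set_option linter.unusedVariables false

open Subgroup Matrix

namespace Cfsg.Agent.H271.LB3.PSp

open Cfsg Cfsg.Agent.H356.SLTwo Cfsg.Agent.H356.SLTorus Cfsg.Agent.H356 Cfsg.Agent.H356.KillPSp Cfsg.Agent.H271.LB3
  Cfsg.Agent.H271.LB3.PSL

variable {F : Type*} [Field F] {m : ℕ}

theorem pm_transpose (σ : Equiv.Perm (Fin m)) : (pm F σ)ᵀ * pm F σ = 1 := by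
  rw [mul_pm]
  ext i j
  show (1 : Matrix (Fin m) (Fin m) F) (σ (σ.symm j)) i = _
  rw [Equiv.apply_symm_apply]
  by_cases h : i = j
  · subst h; rfl
  · rw [one_apply_ne h, one_apply_ne (Ne.symm h)]

/-- the permutation in `Sp` -/
def sps (F : Type*) [Field F] (σ : Equiv.Perm (Fin m)) : symplecticGroup (Fin m) F :=
  ⟨fromBlocks (pm F σ) 0 0 (pm F σ), by
    rw [SymplecticGroup.fromBlocks_mem_iff]
    refine ⟨by simp, by simp, ?_⟩
    simp [pm_transpose]⟩

theorem sps_cube (σ : Equiv.Perm (Fin m)) (h : σ ^ 3 = 1) : sps F σ ^ 3 = 1 := by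
  apply Subtype.ext
  have h1 : ((sps F σ : symplecticGroup (Fin m) F) ^ 3).1 = fromBlocks (pm F σ) 0 0 (pm F σ) ^ 3 := rfl
  rw [h1, pow_succ, pow_two, fromBlocks_multiply, fromBlocks_multiply]
  simp only [Matrix.mul_zero, Matrix.zero_mul, add_zero, zero_add]
  rw [← pow_two, ← pow_succ, pm_cube σ h]
  exact fromBlocks_one

theorem sps_hom (σ : Equiv.Perm (Fin m)) (g : Fin m → Matrix.SpecialLinearGroup (Fin 2) F) :
    sps F σ * hom g = hom (fun k => g (σ k)) * sps F σ := by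
  apply Subtype.ext
  show fromBlocks (pm F σ) 0 0 (pm F σ) * bm g = bm (fun k => g (σ k)) * fromBlocks (pm F σ) 0 0 (pm F σ)
  rw [bm, bm, fromBlocks_multiply, fromBlocks_multiply]
  simp only [Matrix.mul_zero, Matrix.zero_mul, add_zero, zero_add]
  congr 1 <;> exact pm_diag σ _

theorem sps_f (σ : Equiv.Perm (Fin m)) {i j : Fin m} (hij : σ j = i) (a : Matrix.SpecialLinearGroup (Fin 2) F) :
    sps F σ * f i a = f j a * sps F σ := by
  show sps F σ * hom (Pi.mulSingle i a) = hom (Pi.mulSingle j a) * sps F σ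
  rw [sps_hom]
  congr 2
  funext k
  by_cases hk : k = j
  · subst hk
    rw [hij, Pi.mulSingle_eq_same, Pi.mulSingle_eq_same]
  · rw [Pi.mulSingle_eq_of_ne hk, Pi.mulSingle_eq_of_ne]
    rw [← hij]
    exact fun e => hk (σ.injective e)

theorem nine27 [Fintype F] (h3 : Fintype.card F % 3 ≠ 0) (h27 : 27 ∣ Nat.card (PSp 2 F)) :
    9 ∣ Fintype.card F ^ 2 - 1 := by
  have h1 : 27 ∣ Nat.gcd 2 (Fintype.card F - 1) * Nat.card (PSp 2 F) := dvd_mul_of_dvd_right h27 _
  rw [card (F := F) (m := 2) (by norm_num), Finset.prod_range_succ, Finset.prod_range_succ, Finset.prod_range_zero] at h1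
  norm_num at h1
  rw [Num.four_sub] at h1
  refine Num27.sq_dvd (c := Fintype.card F ^ 4 * (Fintype.card F ^ 2 + 1)) ?_ (Num.three_dvd h3) ?_
  · have e1 : Fintype.card F ^ 2 % 3 = 1 := Num.sq_mod h3
    have e2 : Fintype.card F ^ 4 % 3 = 1 := by
      rw [show 4 = 2 * 2 by norm_num, pow_mul, Nat.pow_mod, e1]
    rw [Nat.mul_mod, e2, Nat.add_mod, e1]
    norm_num
  · convert h1 using 1
    ring

/-- **The row `PSp_{2m}(q)`.** -/
theorem row [Fintype F] (hm : 2 ≤ m) (h3 : Fintype.card F % 3 ≠ 0) (h : Bad (PSp m F)) : False := by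
  by_cases hm2 : m = 2
  · subst hm2
    have hfin : Finite (PSp 2 F) := Quotient.finite _
    exact h.kill_nine (KillPSL.three_ne_zero_of h3) (nine27 h3 h.dvd)
      (QuotientGroup.mk' (center (symplecticGroup (Fin 2) F))) (by rw [QuotientGroup.ker_mk']) (f 0) (f_injective 0)
  · have hm3 : 3 ≤ m := by omega
    have h01 : (⟨0, by omega⟩ : Fin m) ≠ ⟨1, by omega⟩ := by simp
    have h02 : (⟨0, by omega⟩ : Fin m) ≠ ⟨2, by omega⟩ := by simp
    exact h.kill_three (QuotientGroup.mk' (center (symplecticGroup (Fin m) F))) (by rw [QuotientGroup.ker_mk'])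
      (f ⟨0, by omega⟩) (f ⟨1, by omega⟩) (f ⟨2, by omega⟩) (f_injective _) (f_comm h01) (f_comm h02)
      (sps_cube _ (sd_cube hm3)) (sps_f _ (sd_one hm3)) (sps_f _ (sd_zero hm3))

end Cfsg.Agent.H271.LB3.PSp
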